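import Mathlib
import Cfsg.Agent.H50.FieldAutULang

/-!
Field automorphisms of `PSU_n(q)` of odd prime order: conjugacy in a coset of the inner-diagonal
group, the centraliser in the inner-diagonal group, and the splitting of the class.
-/

set_option autoImplicit false

open Matrix

namespace Cfsg.Agent.H50.FieldAutU

open Cfsg.Agent.H17 Cfsg.Agent.H50.GraphAut Cfsg.Agent.H50.GraphAutU Cfsg.Agent.H50.AutPSU
  Cfsg.Agent.H50.FieldAut

variable {n : ℕ} {F : Type*} [Field F] [Fintype F] {q : ℕ}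

section arith

variable {p f : ℕ} [Fact p.Prime]

theorem odd_order_dvd (hF : Fintype.card F = q ^ 2) (hq : q = p ^ f) (hf : 1 ≤ f)
    (σ : RingAut F) (hodd : Odd (orderOf σ)) : orderOf σ ∣ f := by
  have h1 : orderOf σ ∣ 2 * f := order_dvd (card_sq hq hF) (by omega) σ
  have h2 : Nat.Coprime (orderOf σ) 2 := Nat.Coprime.symm (Nat.coprime_two_left.mpr hodd)
  exact h2.dvd_of_dvd_mul_left h1

theorem q_eq_pow {r : ℕ} (hq : q = p ^ f) (hrf : r ∣ f) : q = (p ^ (f / r)) ^ r := by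
  rw [← pow_mul, Nat.div_mul_cancel hrf, hq]

end arith

/-- `orderOf (δ x) = r → δ x` is `Inndiag`-conjugate to `x`, for field automorphisms. -/
theorem fieldU_case {p f : ℕ} [Fact p.Prime] (hF : Fintype.card F = q ^ 2) (hq : q = p ^ f)
    (hf : 1 ≤ f) (hn : 3 ≤ n) (hs : ¬ (n = 3 ∧ q = 2)) (x δ : MulAut (Cfsg.PSU n F q))
    (hx : Cfsg.IsFieldAutClassPSU x) {r : ℕ} (hr : r.Prime) (hxr : orderOf x = r)
    (hδ : δ ∈ Cfsg.inndiagPSU n F q) (ho : orderOf (δ * x) = r) :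
    Cfsg.IsConjUnder (Cfsg.inndiagPSU n F q) x (δ * x) := by
  classical
  have hp := (Fact.out : p.Prime)
  obtain ⟨σ, d, hσ, hodd, rfl⟩ := fieldU_std hF hq hf hn hs x hx
  rw [inndiagU_eq] at hδ
  obtain ⟨g, rfl⟩ := hδ
  have hord : orderOf σ = r := by
    rw [← orderOf_phiU hF hn σ, ← hxr, orderOf_conj']
  have hro : Odd r := hord ▸ hodd
  have hrf : r ∣ f := hord ▸ odd_order_dvd hF hq hf σ hodd
  -- a model of the fixed field
  have hne : 2 * (f / r) ≠ 0 := by
    have : 0 < f / r := Nat.div_pos (Nat.le_of_dvd (by omega) hrf) hr.pos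
    omega
  haveI : Fintype (GaloisField p (2 * (f / r))) := Fintype.ofFinite _
  have hF₀ : Fintype.card (GaloisField p (2 * (f / r))) = p ^ (2 * f / r) := by
    rw [← Nat.card_eq_fintype_card, GaloisField.card p _ hne, Nat.mul_div_assoc 2 hrf]
  have hF₀' : Fintype.card (GaloisField p (2 * (f / r))) = (p ^ (f / r)) ^ 2 := by
    rw [hF₀, Nat.mul_div_assoc 2 hrf, ← pow_mul, mul_comm]
  obtain ⟨j, hj⟩ := exists_emb_fix (card_sq hq hF) σ hord hr.pos (GaloisField p (2 * (f / r))) hF₀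
  have hjq := map_pow_q₀ hF₀' (q_eq_pow hq hrf) hro j
  have e : deltaUHom g * (deltaU d * phiU hF σ * (deltaU d)⁻¹) =
      (deltaU d * (deltaU (d⁻¹ * g * d) * phiU hF σ) * (deltaU d)⁻¹ :
        MulAut (Cfsg.PSU n F q)) := by
    rw [deltaUHom_apply, deltaU_mul, deltaU_mul, deltaU_inv]
    group
  rw [e] at ho ⊢
  have hd : deltaU d ∈ Cfsg.inndiagPSU n F q := by
    rw [inndiagU_eq]
    exact ⟨d, rfl⟩
  rw [isConjUnder_conj _ _ hd, isConjUnder_conj_right _ _ hd]
  apply fieldU_conj_of_pow hF hn hs hF₀' σ hord hro j hj hjq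
  rw [orderOf_conj'] at ho
  rw [← ho]
  exact pow_orderOf_eq_one _

/-- The multiplier of a matrix fixed by `σ` up to a scalar has norm one. -/
theorem nrmF_eq_one_of_fix (hn : 0 < n) (σ : RingAut F) {r : ℕ} (hr : orderOf σ = r)
    (h : GL (Fin n) F) (c : F) (hc' : h.1 = c • h.1.map σ) : nrmF σ r c = 1 := by
  have hσr : σ ^ r = 1 := by rw [← hr]; exact pow_orderOf_eq_one σ
  have hk : ∀ k : ℕ, h.1 = nrmF σ k c • h.1.map (σ ^ k : RingAut F) := by
    intro k
    induction k with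
    | zero =>
      rw [nrmF_zero, one_smul]
      ext i j
      rfl
    | succ k ih =>
      have h1 : h.1.map σ = σ (nrmF σ k c) • h.1.map (σ ^ (k + 1) : RingAut F) := by
        conv_lhs => rw [ih]
        rw [map_smul_aut]
        congr 1
        ext i j
        rw [pow_succ']
        rfl
      rw [nrmF_succ, ← smul_smul, ← h1]
      exact hc'
  have h1 := hk r
  rw [hσr] at h1
  have h2 : h.1 * (h⁻¹).1 = (nrmF σ r (c : F) • h.1) * (h⁻¹).1 := by
    have h3 : h.1.map ((1 : RingAut F) : F → F) = h.1 := by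
      ext i j
      rfl
    rw [h3] at h1
    rw [← h1]
  rw [Matrix.smul_mul, Units.mul_inv] at h2
  have h4 := congrFun (congrFun h2 ⟨0, hn⟩) ⟨0, hn⟩
  simpa using h4.symm

/-- The unitary matrices fixed by `σ`, up to norm-one scalars, induce the centraliser of
`phiU σ`. -/
theorem fixedU_of_cent (hF : Fintype.card F = q ^ 2) (hn : 3 ≤ n) (hs : ¬ (n = 3 ∧ q = 2))
    (σ : RingAut F) {r : ℕ} (hr : orderOf σ = r) (hro : Odd r) (h : ↥(Cfsg.GU n F q))
    (hh : h ∈ centGU (phiU hF σ : MulAut (Cfsg.PSU n F q))) :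
    ∃ (e : F) (h₀ : ↥(Cfsg.GU n F q)), e ^ (q + 1) = 1 ∧ h₀.1.1.map σ = h₀.1.1 ∧
      h.1.1 = e • h₀.1.1 := by
  obtain ⟨c, hc⟩ := ((actsU_phiU hF σ).mem_centGU hF hn hs h).mp hh
  have hcN : (c : F) ^ (q + 1) = 1 :=
    (mem_normOne c).mp (scalar_norm_one hF (by omega) _ _ c hc)
  have hc' : h.1.1 = (c : F) • h.1.1.map σ := hc
  have hN : nrmF σ r (c : F) = 1 := nrmF_eq_one_of_fix (by omega) σ hr h.1 c hc'
  obtain ⟨d, hd1, hd⟩ := exists_uh90 hF σ hr hro c hcN hN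
  have hd0 : d ≠ 0 := by
    rintro rfl
    rw [zero_pow (by omega)] at hd1
    exact zero_ne_one hd1
  refine ⟨d, smulGU hF d⁻¹ (by rw [inv_pow, hd1, inv_one]) h, hd1, ?_, ?_⟩
  · rw [smulGU_val, map_smul_aut, map_inv₀]
    nth_rewrite 2 [hc']
    rw [smul_smul]
    congr 1
    have h0 : σ d ≠ 0 := (map_ne_zero _).mpr hd0
    have hc0 : (c : F) ≠ 0 := c.ne_zero
    conv_rhs => rw [← hd]
    field_simp
  · rw [smulGU_val, smul_smul, mul_inv_cancel₀ hd0, one_smul]

end Cfsg.Agent.H50.FieldAutU
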