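import Mathlib
import Cfsg.Agent.H50.CorePSLMain
import Cfsg.Agent.H50.AutPSUOut
import Cfsg.Agent.H50.GraphAutUReps
import Cfsg.Agent.H50.FieldAutUMain

/-!
The `p'`-core of the centraliser of an automorphism of `PSU_n(q)`: the embedding into
`PSL_n(q²)` and the transfer of fixed points.
-/

set_option autoImplicit false

open Matrix

namespace Cfsg.Agent.H50.CorePSU

open Cfsg.Agent.H50.GraphAut Cfsg.Agent.H50.AutPSL Cfsg.Agent.H50.FieldAut
open Cfsg.Agent.H50.CorePSp Cfsg.Agent.H50.GraphAutU Cfsg.Agent.H50.CorePSL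
open Cfsg.Agent.H50.AutPSU

section abstract

theorem exists_lift_hom {E Fx Y : Type*} [Group E] [Group Fx] [Group Y] (κ : Fx →* Y)
    (hκ : Function.Injective κ) (f : E →* Y) (hf : ∀ e, ∃ x, κ x = f e) :
    ∃ f' : E →* Fx, ∀ e, κ (f' e) = f e := by
  refine ⟨((MonoidHom.ofInjective hκ).symm.toMonoidHom).comp
    (f.codRestrict κ.range (fun e => by
      obtain ⟨x, hx⟩ := hf e
      exact ⟨x, hx⟩)), fun e => ?_⟩
  exact MonoidHom.apply_ofInjective_symm hκ _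

theorem two_dvd_of_invol {X : Type*} [Group X] (H : Subgroup X) (e : X) (he : e ∈ H)
    (h1 : e ≠ 1) (h2 : e * e = 1) : 2 ∣ Nat.card H := by
  haveI : Fact (Nat.Prime 2) := ⟨Nat.prime_two⟩
  have h3 : orderOf (⟨e, he⟩ : H) = 2 := by
    apply orderOf_eq_prime
    · apply Subtype.ext
      rw [pow_two]
      exact h2
    · intro h0
      exact h1 (congrArg Subtype.val h0)
  rw [← h3]
  exact orderOf_dvd_natCard _

end abstract

variable {n : ℕ} {F : Type*} [Field F] [Fintype F] {q : ℕ}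

local notation "SLn" => Matrix.SpecialLinearGroup (Fin n) F
local notation "PSLn" => Matrix.ProjectiveSpecialLinearGroup (Fin n) F

/-- The embedding of `PSU_n(q)` into `PSL_n(q²)`. -/
noncomputable def iotaP (hF : Fintype.card F = q ^ 2) (hn : 2 ≤ n) : Cfsg.PSU n F q →* PSLn :=
  QuotientGroup.lift (Subgroup.center ↥(Cfsg.SU n F q))
    ((QuotientGroup.mk' (Subgroup.center SLn)).comp (Cfsg.SU n F q).subtype)
    (fun z hz => MonoidHom.mem_ker.mpr (su_center hF hn z hz))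

theorem iotaP_mk (hF : Fintype.card F = q ^ 2) (hn : 2 ≤ n) (s : ↥(Cfsg.SU n F q)) :
    iotaP hF hn (QuotientGroup.mk s) = QuotientGroup.mk s.1 := rfl

theorem iotaP_injective (hF : Fintype.card F = q ^ 2) (hn : 2 ≤ n) :
    Function.Injective (iotaP (n := n) hF hn) := by
  rw [injective_iff_map_eq_one]
  intro x hx
  obtain ⟨s, rfl⟩ := QuotientGroup.mk_surjective x
  rw [iotaP_mk] at hx
  obtain ⟨c, hc⟩ := scalar_of_mk_eq_one s.1 hx
  have h1 : (QuotientGroup.mk (1 : ↥(Cfsg.SU n F q)) : Cfsg.PSU n F q) = QuotientGroup.mk s :=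
    (mkU_eq_iff hF hn 1 s).mpr ⟨c, hc⟩
  rw [← h1]
  rfl

theorem iotaP_theta (hF : Fintype.card F = q ^ 2) (hn : 2 ≤ n) (g : ↥(Cfsg.GU n F q))
    (σ : RingAut F) (x : Cfsg.PSU n F q) :
    iotaP hF hn ((deltaU g * phiU hF σ : MulAut (Cfsg.PSU n F q)) x) =
      (delta g.1 * phi σ : MulAut PSLn) (iotaP hF hn x) := by
  induction x using QuotientGroup.induction_on with
  | H s => rfl

theorem conjU_inj (hF : Fintype.card F = q ^ 2) (hn : 3 ≤ n) (h32 : ¬ (n = 3 ∧ q = 2)) :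
    Function.Injective (MulAut.conj : Cfsg.PSU n F q →* MulAut (Cfsg.PSU n F q)) := by
  rw [injective_iff_map_eq_one]
  intro x hx
  obtain ⟨s, rfl⟩ := QuotientGroup.mk_surjective x
  rw [conj_mkU_eq_deltaU hF, deltaU_eq_one_iff hF hn h32, Cfsg.Geo.mem_scalars_iff] at hx
  obtain ⟨c, hc⟩ := hx
  have hc' : s.1.1 = (c : F) • (1 : Matrix (Fin n) (Fin n) F) := hc
  have h1 : (QuotientGroup.mk (1 : ↥(Cfsg.SU n F q)) : Cfsg.PSU n F q) = QuotientGroup.mk s :=
    (mkU_eq_iff hF (by omega) 1 s).mpr ⟨c, hc'⟩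
  rw [← h1]
  rfl

theorem fixU_iff (hF : Fintype.card F = q ^ 2) (hn : 3 ≤ n) (h32 : ¬ (n = 3 ∧ q = 2))
    (b : ↥(Cfsg.GU n F q)) (s : ↥(Cfsg.SU n F q)) :
    GamU hF b (QuotientGroup.mk s) = QuotientGroup.mk s ↔
      ∃ c : Fˣ, s.1.1ᵀ * b.1.1 * s.1.1 = (c : F) • b.1.1 := by
  have h0 := mem_centralizer_GamU_iff hF hn h32 (suGU hF s) b
  rw [← conj_mkU_eq_deltaU] at h0
  have e : (suGU hF s).1.1 = s.1.1 := rfl
  rw [e] at h0
  rw [← h0, Subgroup.mem_centralizer_iff]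
  constructor
  · intro h z hz
    rw [Set.mem_singleton_iff] at hz
    rw [hz]
    exact conj_comm_of_fix _ _ h
  · intro h
    have h1 := h (GamU hF b) rfl
    have h2 : GamU hF b * MulAut.conj (QuotientGroup.mk s : Cfsg.PSU n F q) * (GamU hF b)⁻¹ =
        MulAut.conj (QuotientGroup.mk s : Cfsg.PSU n F q) := by
      rw [h1, mul_inv_cancel_right]
    rw [aut_conj] at h2
    exact conjU_inj hF hn h32 h2

/-- The class of `s = P M P⁻¹` in `PSL`. -/
theorem iotaP_conj (hF : Fintype.card F = q ^ 2) (hn : 2 ≤ n) (P : GL (Fin n) F)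
    (s : ↥(Cfsg.SU n F q)) (M : SLn) (hsM : s.1.1 * P.1 = P.1 * M.1) :
    iotaP hF hn (QuotientGroup.mk s) = delta P (QuotientGroup.mk M) := by
  rw [iotaP_mk, delta_mk]
  congr 1
  apply Subtype.ext
  rw [conjSL_val, ← hsM, Matrix.mul_assoc, Units.mul_inv, Matrix.mul_one]

/-- Transfer of a fixed class to the coordinates given by `P`. -/
theorem transfer (hF : Fintype.card F = q ^ 2) (hn : 2 ≤ n) (g : ↥(Cfsg.GU n F q))
    (σ : RingAut F) (P : GL (Fin n) F) (s : ↥(Cfsg.SU n F q)) (M : SLn)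
    (hsM : s.1.1 * P.1 = P.1 * M.1)
    (hfix : (deltaU g * phiU hF σ : MulAut (Cfsg.PSU n F q)) (QuotientGroup.mk s) =
      QuotientGroup.mk s) :
    (delta (P⁻¹ * g.1 * mapGL σ P) * phi σ : MulAut PSLn) (QuotientGroup.mk M) =
      QuotientGroup.mk M := by
  have h2 := congrArg (iotaP hF hn) hfix
  rw [iotaP_theta, iotaP_conj hF hn P s M hsM] at h2
  have h3 : (delta g.1 * phi σ * delta P : MulAut PSLn) =
      delta P * (delta (P⁻¹ * g.1 * mapGL σ P) * phi σ) := by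
    calc (delta g.1 * phi σ * delta P : MulAut PSLn)
        = delta g.1 * (delta (mapGL σ P) * phi σ) := by rw [mul_assoc, phi_mul_delta]
      _ = delta (g.1 * mapGL σ P) * phi σ := by rw [← mul_assoc, ← delta_mul]
      _ = delta (P * (P⁻¹ * g.1 * mapGL σ P)) * phi σ := by
          have e : g.1 * mapGL σ P = P * (P⁻¹ * g.1 * mapGL σ P) := by
            rw [← mul_assoc, ← mul_assoc, mul_inv_cancel, one_mul]
          rw [← e]
      _ = delta P * (delta (P⁻¹ * g.1 * mapGL σ P) * phi σ) := by rw [delta_mul, mul_assoc]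
  have h4 : (delta P * (delta (P⁻¹ * g.1 * mapGL σ P) * phi σ) : MulAut PSLn)
      (QuotientGroup.mk M) = delta P (QuotientGroup.mk M) := by
    rw [← h3]
    exact h2
  exact (delta P).injective h4

/-- Conjugating a similitude of `b` by `P` gives a similitude of `S`. -/
theorem conj_isom (P : GL (Fin n) F) (b S : Matrix (Fin n) (Fin n) F) (c : F) (hc : c ≠ 0)
    (h1 : P.1ᵀ * b * P.1 = c • S) (s : Matrix (Fin n) (Fin n) F) (c' : F)
    (hs : sᵀ * b * s = c' • b) :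
    ((P⁻¹).1 * s * P.1)ᵀ * S * ((P⁻¹).1 * s * P.1) = c' • S := by
  have hPx : P.1 * ((P⁻¹).1 * s * P.1) = s * P.1 := by
    rw [← Matrix.mul_assoc, ← Matrix.mul_assoc, Units.mul_inv, Matrix.one_mul]
  have key : c • (((P⁻¹).1 * s * P.1)ᵀ * S * ((P⁻¹).1 * s * P.1)) = c • (c' • S) := by
    calc c • (((P⁻¹).1 * s * P.1)ᵀ * S * ((P⁻¹).1 * s * P.1))
        = ((P⁻¹).1 * s * P.1)ᵀ * (c • S) * ((P⁻¹).1 * s * P.1) := by
          rw [Matrix.mul_smul, Matrix.smul_mul]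
      _ = ((P⁻¹).1 * s * P.1)ᵀ * (P.1ᵀ * b * P.1) * ((P⁻¹).1 * s * P.1) := by rw [h1]
      _ = (P.1 * ((P⁻¹).1 * s * P.1))ᵀ * b * (P.1 * ((P⁻¹).1 * s * P.1)) := by
          rw [Matrix.transpose_mul P.1]
          simp only [Matrix.mul_assoc]
      _ = (s * P.1)ᵀ * b * (s * P.1) := by rw [hPx]
      _ = P.1ᵀ * (sᵀ * b * s) * P.1 := by
          rw [Matrix.transpose_mul]
          simp only [Matrix.mul_assoc]
      _ = c' • (P.1ᵀ * b * P.1) := by rw [hs, Matrix.mul_smul, Matrix.smul_mul]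
      _ = c • (c' • S) := by rw [h1, smul_comm]
  exact smul_right_injective _ hc key

section datum

variable {F₀ : Type*} [Field F₀]

/-- Rational isometries give fixed points of the graph automorphism. -/
theorem rat_fix (hF : Fintype.card F = q ^ 2) (hn : 3 ≤ n) (h32 : ¬ (n = 3 ∧ q = 2))
    {j : F₀ →+* F} (hj : ∀ x : F, x ^ q = x ↔ ∃ x₀ : F₀, j x₀ = x)
    {d : F} {b : ↥(Cfsg.GU n F q)} {P : GL (Fin n) F} {S₀ : GL (Fin n) F₀} {c : Fˣ}
    (D : IsDatum hF j d b P S₀ c) (M : SLn) (hM : M.1.map (frobE hF) = M.1)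
    (hiso : M.1ᵀ * S₀.1.map j * M.1 = S₀.1.map j) :
    ∃ s : ↥(Cfsg.SU n F q), s.1.1 * P.1 = P.1 * M.1 ∧
      GamU hF b (QuotientGroup.mk s) = QuotientGroup.mk s := by
  obtain ⟨M₀, hM₀⟩ := exists_rational hF j hj M.1 hM
  have hk : M₀ᵀ * S₀.1 * M₀ = S₀.1 := by
    apply map_j_injective j
    rw [Matrix.map_mul, Matrix.map_mul, Matrix.transpose_map, hM₀]
    exact hiso
  have hdet : M₀.det = 1 := by
    apply j.injective
    rw [RingHom.map_det, RingHom.mapMatrix_apply, hM₀, map_one]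
    exact M.2
  obtain ⟨h, hh1, hh2⟩ := lift hj D D (Matrix.GeneralLinearGroup.mkOfDetNeZero M₀
    (by rw [hdet]; exact one_ne_zero)) 1 (by rw [one_smul]; exact hk) 1
    (by rw [one_pow, map_one, mul_one])
  have e0 : ((Matrix.GeneralLinearGroup.mkOfDetNeZero M₀
    (by rw [hdet]; exact one_ne_zero) : GL (Fin n) F₀) : Matrix (Fin n) (Fin n) F₀) = M₀ := rfl
  rw [one_smul, e0, hM₀] at hh1
  have hdet' : h.1.1.det = 1 := by
    have h1 := congrArg Matrix.det hh1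
    rw [Matrix.det_mul, Matrix.det_mul, M.2, mul_one] at h1
    have h3 : h.1.1.det * P.1.det = 1 * P.1.det := by rw [one_mul]; exact h1
    exact mul_right_cancel₀ (gl_det_ne_zero P) h3
  refine ⟨⟨⟨h.1.1, hdet'⟩, (mem_SU_iff hF _).mpr ((mem_GU_iff hF h.1).mp h.2)⟩, hh1, ?_⟩
  rw [fixU_iff hF hn h32]
  refine ⟨1, ?_⟩
  rw [Units.val_one, one_smul]
  have hc0 := c.ne_zero
  have e1 : ((1 : F) ^ 2 * j 1 * (c : F) / (c : F)) = 1 := by
    rw [map_one]
    field_simp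
  rw [e1, one_smul] at hh2
  exact hh2

/-- Transfer of the fixed points of an automorphism centralising the fixed points of the graph
automorphism. -/
theorem rat_theta (hF : Fintype.card F = q ^ 2) (hn : 3 ≤ n) (h32 : ¬ (n = 3 ∧ q = 2))
    {j : F₀ →+* F} (hj : ∀ x : F, x ^ q = x ↔ ∃ x₀ : F₀, j x₀ = x)
    {d : F} {b : ↥(Cfsg.GU n F q)} {P : GL (Fin n) F} {S₀ : GL (Fin n) F₀} {c : Fˣ}
    (D : IsDatum hF j d b P S₀ c) (g : ↥(Cfsg.GU n F q)) (σ : RingAut F)
    (hfix : ∀ k : Cfsg.PSU n F q, GamU hF b k = k →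
      (deltaU g * phiU hF σ : MulAut (Cfsg.PSU n F q)) k = k)
    (M : SLn) (hM : M.1.map (frobE hF) = M.1)
    (hiso : M.1ᵀ * S₀.1.map j * M.1 = S₀.1.map j) :
    (delta (P⁻¹ * g.1 * mapGL σ P) * phi σ : MulAut PSLn) (QuotientGroup.mk M) =
      QuotientGroup.mk M := by
  obtain ⟨s, hs1, hs2⟩ := rat_fix hF hn h32 hj D M hM hiso
  exact transfer hF (by omega) g σ P s M hs1 (hfix _ hs2)

end datum

/-- The generic criterion for the triviality of the odd core. -/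
theorem core_bot_ofU {r f : ℕ} [Fact r.Prime] (hF : Fintype.card F = q ^ 2) (hq : q = r ^ f)
    (hf : 1 ≤ f) (hn : 3 ≤ n) (h32 : ¬ (n = 3 ∧ q = 2))
    (A : Subgroup (MulAut (Cfsg.PSU n F q))) (hinn : ∀ k : Cfsg.PSU n F q, MulAut.conj k ∈ A)
    (y : MulAut (Cfsg.PSU n F q))
    (HA : ∀ (N : Subgroup ↥(A ⊓ Subgroup.centralizer ({y} : Set (MulAut (Cfsg.PSU n F q))))),
      N.Normal → Odd (Nat.card N) → ∀ k : ↥(FixS y), iotaFix A hinn y k ∈ N → k = 1)
    (HB : ∀ (h : ↥(Cfsg.GU n F q)) (σ : RingAut F),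
      (deltaU h * phiU hF σ : MulAut (Cfsg.PSU n F q)) * y = y * (deltaU h * phiU hF σ) →
      (∀ k : Cfsg.PSU n F q, y k = k → (deltaU h * phiU hF σ : MulAut (Cfsg.PSU n F q)) k = k) →
      ∀ m : ℕ, Odd m → (deltaU h * phiU hF σ : MulAut (Cfsg.PSU n F q)) ^ m = 1 → σ ^ m = 1 →
        (deltaU h * phiU hF σ : MulAut (Cfsg.PSU n F q)) = 1) :
    Cfsg.pPrimeCore 2 ↥(A ⊓ Subgroup.centralizer ({y} : Set (MulAut (Cfsg.PSU n F q)))) = ⊥ := by
  by_contra hne
  obtain ⟨N, hN, hcop, hNne⟩ := (core_ne_bot_iff 2).mp hne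
  have hodd : Odd (Nat.card N) := Nat.Coprime.odd_of_right hcop
  apply hNne
  rw [Subgroup.eq_bot_iff_forall]
  intro ν hν
  have hfixν : ∀ k : Cfsg.PSU n F q, y k = k → ν.1 k = k := by
    intro k hk
    have h1 := comm_mem A hinn y N hN ν hν k hk
    have h2 := HA N hN hodd _ h1
    have h3 : ν.1 k * k⁻¹ = 1 := congrArg Subtype.val h2
    exact mul_inv_eq_one.mp h3
  have hνpow : ν.1 ^ Nat.card N = 1 := by
    have h1 : (⟨ν, hν⟩ : N) ^ Nat.card N = 1 := pow_card_eq_one'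
    have h2 : ν ^ Nat.card N = 1 := congrArg Subtype.val h1
    exact congrArg Subtype.val h2
  obtain ⟨h, σ, hdec⟩ := aut_eq hF hq hf hn h32 ν.1
  have hσ : σ ^ Nat.card N = 1 := by
    have h1 := congrArg (psiUHom hF hq hf hn h32) hνpow
    rw [map_pow, map_one, hdec, psiUHom_apply] at h1
    exact h1
  have hcomm := cent_comm A y ν
  have h1 := HB h σ (by rw [← hdec]; exact hcomm.symm) (by rw [← hdec]; exact hfixν) _ hodd
    (by rw [← hdec]; exact hνpow) hσ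
  apply Subtype.ext
  rw [hdec]
  exact h1

end Cfsg.Agent.H50.CorePSU
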