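import Mathlib
import Cfsg.Agent.H50.CorePSUBase

/-!
Abstract form of the argument for the `p'`-core of the centraliser of an automorphism whose
fixed points are covered by a group with simple central quotient.
-/

set_option autoImplicit false

namespace Cfsg.Agent.H50.CorePSU

open Cfsg.Agent.H50.CorePSp Cfsg.Agent.H50.CorePSL

variable {X : Type*} [Group X]

theorem step1_abs (hinj : Function.Injective (MulAut.conj : X →* MulAut X))
    (A : Subgroup (MulAut X)) (hinn : ∀ k : X, MulAut.conj k ∈ A) (y : MulAut X) {p : ℕ}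
    (N : Subgroup ↥(A ⊓ Subgroup.centralizer ({y} : Set (MulAut X)))) [N.Normal]
    (hcop : (Nat.card N).Coprime p)
    {S : Type*} [Group S] (hs : IsSimpleGroup (S ⧸ Subgroup.center S))
    (ψ : S →* X) (hψfix : ∀ s, y (ψ s) = ψ s) (hψz : ∀ z ∈ Subgroup.center S, ψ z = 1)
    (t : S) (ht1 : ψ t ≠ 1) (htp : ψ t ^ p = 1)
    (s : S) (hsN : iotaFix A hinn y ⟨ψ s, hψfix s⟩ ∈ N) : ψ s = 1 := by
  obtain ⟨ψ', hψ'⟩ : ∃ ψ' : S →* ↥(FixS y), ∀ s, (ψ' s).1 = ψ s :=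
    ⟨ψ.codRestrict _ hψfix, fun s => rfl⟩
  obtain ⟨M, hM⟩ : ∃ M : Subgroup S, M = N.comap ((iotaFix A hinn y).comp ψ') := ⟨_, rfl⟩
  haveI : M.Normal := by
    rw [hM]
    exact Subgroup.Normal.comap inferInstance _
  have hmemM : ∀ s, s ∈ M ↔ iotaFix A hinn y (ψ' s) ∈ N := by
    intro s
    rw [hM]
    rfl
  have hψs : ∀ s, ψ' s = ⟨ψ s, hψfix s⟩ := fun s => Subtype.ext (hψ' s)
  have hinjF := iotaFix_injective A hinn y hinj
  rcases normal_le_center_or hs M with hMc | hMc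
  · apply hψz s
    apply hMc
    rw [hmemM, hψs]
    exact hsN
  · exfalso
    obtain ⟨m, hm, z, hz, htmz⟩ := hMc t
    have h1 : ψ t = ψ m := by rw [htmz, map_mul, hψz z hz, mul_one]
    have hmN : iotaFix A hinn y (ψ' m) ∈ N := (hmemM m).mp hm
    have h2 : (⟨iotaFix A hinn y (ψ' m), hmN⟩ : N) ^ Nat.card N = 1 := pow_card_eq_one'
    have h3 : iotaFix A hinn y (ψ' m) ^ Nat.card N = 1 := congrArg Subtype.val h2
    have h4 : ψ' m ^ Nat.card N = 1 := by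
      apply hinjF
      rw [map_pow, map_one]
      exact h3
    have h5 : ψ m ^ Nat.card N = 1 := by
      have := congrArg Subtype.val h4
      rw [Subgroup.coe_pow, hψ'] at this
      exact this
    have h6 : orderOf (ψ m) ∣ Nat.gcd (Nat.card N) p :=
      Nat.dvd_gcd (orderOf_dvd_of_pow_eq_one h5) (orderOf_dvd_of_pow_eq_one (by rw [← h1]; exact htp))
    rw [Nat.Coprime] at hcop
    rw [hcop] at h6
    apply ht1
    rw [h1]
    exact orderOf_eq_one_iff.mp (Nat.dvd_one.mp h6)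

theorem fix_pow_abs (A : Subgroup (MulAut X)) (hinn : ∀ k : X, MulAut.conj k ∈ A) (y : MulAut X)
    (N : Subgroup ↥(A ⊓ Subgroup.centralizer ({y} : Set (MulAut X)))) [N.Normal]
    {S : Type*} [Group S] (ψ : S →* X) (hψfix : ∀ s, y (ψ s) = ψ s)
    (Hstep : ∀ s : S, iotaFix A hinn y ⟨ψ s, hψfix s⟩ ∈ N → ψ s = 1)
    (E : ℕ) (Hpow : ∀ k : X, y k = k → ∃ s : S, ψ s = k ^ E)
    (ν : ↥(A ⊓ Subgroup.centralizer ({y} : Set (MulAut X)))) (hν : ν ∈ N) (s : S) :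
    ν.1 (ψ (s ^ E)) = ψ (s ^ E) := by
  have hk : y (ψ (s ^ E)) = ψ (s ^ E) := hψfix _
  obtain ⟨s'', hs''⟩ := Hpow _ (cent_map_fix A y ν _ (hψfix s))
  have h1 := comm_mem A hinn y N inferInstance ν hν (ψ (s ^ E)) hk
  have e : ν.1 (ψ (s ^ E)) * (ψ (s ^ E))⁻¹ = ψ (s'' * (s ^ E)⁻¹) := by
    rw [map_mul, map_inv, hs'', map_pow ψ, map_pow]
  have h2 : iotaFix A hinn y ⟨ψ (s'' * (s ^ E)⁻¹), hψfix _⟩ ∈ N := by
    have e' : (⟨ν.1 (ψ (s ^ E)) * (ψ (s ^ E))⁻¹, comm_fix A y ν (ψ (s ^ E)) hk⟩ : ↥(FixS y)) =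
        ⟨ψ (s'' * (s ^ E)⁻¹), hψfix _⟩ := Subtype.ext e
    rw [← e']
    exact h1
  have h3 := Hstep _ h2
  rw [← e] at h3
  exact mul_inv_eq_one.mp h3

theorem core_bot_abs (A : Subgroup (MulAut X)) (hinn : ∀ k : X, MulAut.conj k ∈ A) (y : MulAut X)
    (p : ℕ) {S : Type*} [Group S] (ψ : S →* X) (hψfix : ∀ s, y (ψ s) = ψ s)
    (Hstep : ∀ (N : Subgroup ↥(A ⊓ Subgroup.centralizer ({y} : Set (MulAut X)))), N.Normal →
      (Nat.card N).Coprime p → ∀ s : S, iotaFix A hinn y ⟨ψ s, hψfix s⟩ ∈ N → ψ s = 1)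
    (E : ℕ) (Hpow : ∀ k : X, y k = k → ∃ s : S, ψ s = k ^ E)
    (HB : ∀ ν : MulAut X, ν * y = y * ν → (∀ s : S, ν (ψ (s ^ E)) = ψ (s ^ E)) →
      ∀ m : ℕ, m.Coprime p → ν ^ m = 1 → ν = 1) :
    Cfsg.pPrimeCore p ↥(A ⊓ Subgroup.centralizer ({y} : Set (MulAut X))) = ⊥ := by
  by_contra hne
  obtain ⟨N, hN, hcop, hNne⟩ := (core_ne_bot_iff p).mp hne
  apply hNne
  rw [Subgroup.eq_bot_iff_forall]
  intro ν hν
  haveI := hN
  have hνpow : ν.1 ^ Nat.card N = 1 := by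
    have h1 : (⟨ν, hν⟩ : N) ^ Nat.card N = 1 := pow_card_eq_one'
    have h2 : ν ^ Nat.card N = 1 := congrArg Subtype.val h1
    exact congrArg Subtype.val h2
  have h1 := HB ν.1 (cent_comm A y ν).symm
    (fun s => fix_pow_abs A hinn y N ψ hψfix (Hstep N hN hcop) E Hpow ν hν s) _ hcop hνpow
  exact Subtype.ext h1

theorem core_nontrivial_abs (hinj : Function.Injective (MulAut.conj : X →* MulAut X))
    (A : Subgroup (MulAut X)) (hinn : ∀ k : X, MulAut.conj k ∈ A) (y : MulAut X) (p : ℕ)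
    (hcop : Nat.Coprime p (Nat.card ↥(FixS y))) (k₀ : X) (hk₀ : y k₀ = k₀) (hk₀1 : k₀ ≠ 1) :
    Cfsg.pPrimeCore p ↥(A ⊓ Subgroup.centralizer ({y} : Set (MulAut X))) ≠ ⊥ := by
  rw [core_ne_bot_iff]
  have hinjF : Function.Injective (iotaFix A hinn y) := iotaFix_injective A hinn _ hinj
  refine ⟨(iotaFix A hinn y).range, ?_, ?_, ?_⟩
  · constructor
    rintro _ ⟨k, rfl⟩ g
    refine ⟨⟨g.1 k.1, cent_map_fix A y g k.1 k.2⟩, ?_⟩
    apply Subtype.ext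
    show MulAut.conj (g.1 k.1) = g.1 * MulAut.conj k.1 * g.1⁻¹
    rw [aut_conj]
  · rw [Nat.card_congr (MonoidHom.ofInjective hinjF).toEquiv.symm]
    exact hcop.symm
  · intro h0
    have hmem : iotaFix A hinn y ⟨k₀, hk₀⟩ ∈ (iotaFix A hinn y).range := ⟨_, rfl⟩
    rw [h0, Subgroup.mem_bot] at hmem
    have h1 := (injective_iff_map_eq_one _).mp hinjF _ hmem
    exact hk₀1 (congrArg Subtype.val h1)

end Cfsg.Agent.H50.CorePSU
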