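import Mathlib
import Cfsg.Agent.H50.CorePSUFieldA

/-!
Field automorphisms of `PSU_n(q)`: the subgroup of rational unitary matrices and the
automorphisms fixing the classes of its transvections.
-/

set_option autoImplicit false

open Matrix

namespace Cfsg.Agent.H50.CorePSU

open Cfsg.Agent.H50.GraphAut Cfsg.Agent.H50.AutPSL Cfsg.Agent.H50.FieldAut
open Cfsg.Agent.H50.CorePSp Cfsg.Agent.H50.GraphAutU Cfsg.Agent.H50.CorePSL
open Cfsg.Agent.H50.AutPSU Cfsg.Agent.H50.FieldAutU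

variable {n : ℕ} {F : Type*} [Field F] [Fintype F] {q : ℕ} {F₀ : Type*} [Field F₀] [Fintype F₀]
  {q₀ : ℕ}

local notation "SLn" => Matrix.SpecialLinearGroup (Fin n) F
local notation "PSLn" => Matrix.ProjectiveSpecialLinearGroup (Fin n) F

theorem map_j_bv (j : F₀ →+* F) (i l : Fin n) :
    j ((bv i : Fin n → F₀) l) = (bv i : Fin n → F) l := by
  by_cases h : l = i
  · rw [h, bv_same, bv_same, map_one]
  · rw [bv_ne h, bv_ne h, map_zero]

theorem map_j_vec3 (j : F₀ →+* F) (i k l : Fin n) (s s' : F₀) :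
    (fun x => j ((bv i + s • bv k + s' • bv l : Fin n → F₀) x)) =
      bv i + j s • bv k + j s' • bv l := by
  funext x
  simp only [Pi.add_apply, Pi.smul_apply, smul_eq_mul, map_add, map_mul, map_j_bv]

theorem map_j_tvM (j : F₀ →+* F) (u₀ φ₀ : Fin n → F₀) :
    (tvM u₀ φ₀).map j = tvM (fun i => j (u₀ i)) (fun i => j (φ₀ i)) := by
  ext a b
  rw [Matrix.map_apply, tvM_apply, tvM_apply, map_add, map_mul]
  congr 1
  split_ifs <;> simp

/-- If the semilinear map `h ∘ τ` has every rational isotropic vector as an eigenvector, then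
`h` is scalar and `τ` fixes the rational elements. -/
theorem iso_eig_scalar (hF₀ : Fintype.card F₀ = q₀ ^ 2) (hn : 3 ≤ n) (j : F₀ →+* F)
    (h : GL (Fin n) F) (τ : RingAut F)
    (heig : ∀ (u₀ : Fin n → F₀) (v : Fin n → F), v = (fun i => j (u₀ i)) → u₀ ≠ 0 →
      (fun l => frobE hF₀ (u₀ l)) ⬝ᵥ u₀ = 0 →
      ∃ a : F, h.1 *ᵥ (fun i => τ (v i)) = a • v) :
    (∃ a : F, h.1 = a • (1 : Matrix (Fin n) (Fin n) F)) ∧ ∀ x₀ : F₀, τ (j x₀) = j x₀ := by
  have hm1 : frobE hF₀ (-1 : F₀) = -1 := by rw [map_neg, map_one]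
  obtain ⟨η, hη⟩ := exists_nrm hF₀ (-1) hm1
  obtain ⟨ω, hω, hω2⟩ := H7.exists_norm_one_sq_ne_one hF₀
  have hω1 : ω ≠ 1 := by
    rintro rfl
    exact hω2 (one_pow 2)
  have hη0 : η ≠ 0 := by
    rintro rfl
    rw [zero_mul] at hη
    exact (neg_ne_zero.mpr one_ne_zero) hη.symm
  have hη' : (ω * η) * frobE hF₀ (ω * η) = -1 := by
    rw [map_mul, frobE_apply hF₀ ω]
    have h1 : ω * ω ^ q₀ = 1 := by rw [← pow_succ', hω]
    linear_combination (η * frobE hF₀ η) * h1 + hη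
  have hne : ω * η ≠ η := by
    intro h0
    apply hω1
    have h1 : (ω - 1) * η = 0 := by linear_combination h0
    rcases mul_eq_zero.mp h1 with h3 | h3
    · exact sub_eq_zero.mp h3
    · exact absurd h3 hη0
  have hiso2 : ∀ (l i k : Fin n), l ≠ i → l ≠ k → i ≠ k → ∀ s : F₀, s * frobE hF₀ s = -1 →
      (fun x => frobE hF₀ ((bv l + s • bv i + (0 : F₀) • bv k : Fin n → F₀) x)) ⬝ᵥ
        (bv l + s • bv i + (0 : F₀) • bv k) = 0 := by
    intro l i k hli hlk hik s hs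
    rw [iso3 (frobE hF₀) l i k hli hlk hik, map_zero]
    linear_combination hs
  have hne3 : ∀ (i j' k : Fin n), i ≠ j' → i ≠ k → ∀ s s' : F₀,
      (bv i + s • bv j' + s' • bv k : Fin n → F₀) ≠ 0 := by
    intro i j' k hij hik s s' h0
    have h1 := congrFun h0 i
    simp only [Pi.add_apply, Pi.smul_apply, smul_eq_mul, Pi.zero_apply] at h1
    rw [bv_same, bv_ne hij, bv_ne hik] at h1
    simp at h1
  have hoff : ∀ k l, k ≠ l → h.1 k l = 0 := by
    intro k l hkl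
    obtain ⟨i, hik, hil⟩ := CorePSL.exists_third hn k l
    have hli : l ≠ i := fun h => hil h.symm
    have hlk : l ≠ k := fun h => hkl h.symm
    obtain ⟨a₁, ha₁⟩ := heig _ _ (map_j_vec3 j l i k η 0).symm (hne3 l i k hli hlk η 0)
      (hiso2 l i k hli hlk hik η hη)
    obtain ⟨a₂, ha₂⟩ := heig _ _ (map_j_vec3 j l i k (ω * η) 0).symm
      (hne3 l i k hli hlk (ω * η) 0) (hiso2 l i k hli hlk hik (ω * η) hη')
    rw [mulVec_map3] at ha₁ ha₂
    have h1 := congrFun ha₁ k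
    have h3 := congrFun ha₂ k
    simp only [Pi.add_apply, Pi.smul_apply, smul_eq_mul, map_zero] at h1 h3
    rw [bv_ne hkl, bv_ne (Ne.symm hik)] at h1 h3
    have h4 : (τ (j η) - τ (j (ω * η))) * h.1 k i = 0 := by linear_combination h1 - h3
    have h5 : h.1 k i = 0 := by
      rcases mul_eq_zero.mp h4 with h6 | h6
      · exfalso
        apply hne
        exact (j.injective (τ.injective (sub_eq_zero.mp h6))).symm
      · exact h6
    rw [h5] at h1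
    linear_combination h1
  have hrel : ∀ i j' : Fin n, i ≠ j' → ∀ s : F₀, h.1 j' j' * τ (j s) = h.1 i i * j s := by
    intro i j' hij s
    obtain ⟨k, hkj, hki⟩ := CorePSL.exists_third hn j' i
    have hik : i ≠ k := fun h => hki h.symm
    have hjk : j' ≠ k := fun h => hkj h.symm
    have hc : frobE hF₀ (-1 - s * frobE hF₀ s) = -1 - s * frobE hF₀ s := by
      rw [map_sub, map_neg, map_one, map_mul, frobE_frobE]
      ring
    obtain ⟨s', hs'⟩ := exists_nrm hF₀ _ hc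
    have hiso : (fun l => frobE hF₀ ((bv i + s • bv j' + s' • bv k : Fin n → F₀) l)) ⬝ᵥ
        (bv i + s • bv j' + s' • bv k) = 0 := by
      rw [iso3 (frobE hF₀) i j' k hij hik hjk]
      linear_combination hs'
    obtain ⟨a, ha⟩ := heig _ _ (map_j_vec3 j i j' k s s').symm (hne3 i j' k hij hik s s') hiso
    exact rel_of_eig h τ hoff i j' k hij hik hjk (j s) (j s') a ha
  obtain ⟨z, hz⟩ : ∃ z : Fin n, z = ⟨0, by omega⟩ := ⟨_, rfl⟩
  have hdiag : ∀ i, h.1 i i = h.1 z z := by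
    intro i
    by_cases hiz : i = z
    · rw [hiz]
    · have := hrel z i (Ne.symm hiz) 1
      rw [map_one, map_one, mul_one, mul_one] at this
      exact this
  refine ⟨⟨h.1 z z, ?_⟩, ?_⟩
  · ext i l
    rw [Matrix.smul_apply, Matrix.one_apply]
    by_cases hil : i = l
    · rw [if_pos hil, ← hil, hdiag i, smul_eq_mul, mul_one]
    · rw [if_neg hil, hoff i l hil, smul_zero]
  · intro t
    obtain ⟨m', hm'⟩ : ∃ m' : Fin n, m' = ⟨1, by omega⟩ := ⟨_, rfl⟩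
    have hzm : z ≠ m' := by
      rw [hz, hm']
      intro h0
      exact absurd (Fin.ext_iff.mp h0) (by norm_num)
    have h1 := hrel z m' hzm t
    rw [hdiag m'] at h1
    exact mul_left_cancel₀ (diag_ne_zero h hoff z) h1

/-- Unitary transvections. -/
theorem tv_mem_SU (hF : Fintype.card F = q ^ 2) (u : Fin n → F) (ε : F) (hε : frobE hF ε = -ε)
    (h : (ε • fun l => frobE hF (u l)) ⬝ᵥ u = 0) :
    tv u (ε • fun l => frobE hF (u l)) h ∈ Cfsg.SU n F q := by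
  have h1 : GraphAutU.mapSL (frobE hF) (invT (tv u (ε • fun l => frobE hF (u l)) h)) =
      tv u (ε • fun l => frobE hF (u l)) h := by
    rw [invT_tv, mapSL_tv]
    apply tv_ext
    ext i j
    rw [Matrix.vecMulVec_apply, Matrix.vecMulVec_apply]
    simp only [Pi.neg_apply, Pi.smul_apply, smul_eq_mul, map_neg, map_mul]
    rw [frobE_frobE]
    linear_combination (-(u i) * frobE hF (u j)) * hε
  have h2 : (invT (tv u (ε • fun l => frobE hF (u l)) h)).1 =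
      (tv u (ε • fun l => frobE hF (u l)) h).1.map (frobE hF) := by
    have h3 := congrArg (fun s : SLn => s.1.map (frobE hF)) h1
    simp only [GraphAutU.mapSL_val, map_map_frobE] at h3
    exact h3
  rw [mem_SU_iff hF, ← h2, invT_val, ← Matrix.transpose_mul, ← Matrix.SpecialLinearGroup.coe_mul,
    inv_mul_cancel, Matrix.SpecialLinearGroup.coe_one, Matrix.transpose_one]

/-- The rational unitary matrices. -/
def mapJS (hF : Fintype.card F = q ^ 2) (hF₀ : Fintype.card F₀ = q₀ ^ 2) (j : F₀ →+* F)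
    (hjq : ∀ x₀ : F₀, j (x₀ ^ q₀) = j x₀ ^ q) : ↥(Cfsg.SU n F₀ q₀) →* ↥(Cfsg.SU n F q) :=
  ((Matrix.SpecialLinearGroup.map j).comp (Cfsg.SU n F₀ q₀).subtype).codRestrict (Cfsg.SU n F q)
    (fun s₀ => by
      rw [mem_SU_iff hF]
      show (s₀.1.1.map j)ᵀ * (s₀.1.1.map j).map (frobE hF) = 1
      rw [map_j_unitary hF hF₀ j hjq, (mem_SU_iff hF₀ s₀.1).mp s₀.2, map_j_one])

theorem mapJS_val (hF : Fintype.card F = q ^ 2) (hF₀ : Fintype.card F₀ = q₀ ^ 2) (j : F₀ →+* F)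
    (hjq : ∀ x₀ : F₀, j (x₀ ^ q₀) = j x₀ ^ q) (s₀ : ↥(Cfsg.SU n F₀ q₀)) :
    (mapJS hF hF₀ j hjq s₀).1.1 = s₀.1.1.map j := rfl

section fld

variable (hF : Fintype.card F = q ^ 2) (hF₀ : Fintype.card F₀ = q₀ ^ 2) (σ : RingAut F)
  (j : F₀ →+* F) (hj : ∀ x : F, σ x = x ↔ ∃ x₀ : F₀, j x₀ = x)
  (hjq : ∀ x₀ : F₀, j (x₀ ^ q₀) = j x₀ ^ q)

include hj in
theorem mapJS_fix (s₀ : ↥(Cfsg.SU n F₀ q₀)) :
    phiU hF σ (QuotientGroup.mk (mapJS hF hF₀ j hjq s₀)) =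
      QuotientGroup.mk (mapJS hF hF₀ j hjq s₀) := by
  rw [phiU, autU_mk]
  congr 1
  apply Subtype.ext
  apply Subtype.ext
  ext a b
  exact (hj _).mpr ⟨_, rfl⟩

theorem mapJS_center (hn : 2 ≤ n) (z : ↥(Cfsg.SU n F₀ q₀))
    (hz : z ∈ Subgroup.center ↥(Cfsg.SU n F₀ q₀)) :
    (QuotientGroup.mk (mapJS hF hF₀ j hjq z) : Cfsg.PSU n F q) = 1 := by
  obtain ⟨c, hc⟩ := scalar_of_commute_SU hF₀ hn z.1.1 (fun s hs => by
    have h1 := Subgroup.mem_center_iff.mp hz ⟨s, hs⟩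
    exact congrArg (fun t : ↥(Cfsg.SU n F₀ q₀) => t.1.1) h1)
  have h1 : (QuotientGroup.mk (1 : ↥(Cfsg.SU n F q)) : Cfsg.PSU n F q) =
      QuotientGroup.mk (mapJS hF hF₀ j hjq z) :=
    (mkU_eq_iff hF hn 1 _).mpr ⟨j c, by
      rw [mapJS_val, hc, map_j_smul, map_j_one]
      rfl⟩
  rw [← h1]
  rfl

include hj in
theorem mapJS_pow (hn : 2 ≤ n) (k : Cfsg.PSU n F q) (hk : phiU hF σ k = k) :
    ∃ s₀ : ↥(Cfsg.SU n F₀ q₀),
      (QuotientGroup.mk (mapJS hF hF₀ j hjq s₀) : Cfsg.PSU n F q) = k ^ (q + 1) := by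
  haveI : Nonempty (Fin n) := ⟨⟨0, by omega⟩⟩
  obtain ⟨s', rfl⟩ := QuotientGroup.mk_surjective k
  rw [phiU, autU_mk] at hk
  obtain ⟨ζ, hζ⟩ := (mkU_eq_iff hF hn s' _).mp hk.symm
  have hζ' : s'.1.1.map σ = ζ • s'.1.1 := hζ
  have hX := (mem_SU_iff hF s'.1).mp s'.2
  have hXσ : (s'.1.1.map σ)ᵀ * (s'.1.1.map σ).map (frobE hF) = 1 :=
    (unitary_map hF σ s'.1.1).mpr hX
  rw [hζ', GraphAutU.map_smul', Matrix.transpose_smul, Matrix.smul_mul, Matrix.mul_smul, hX,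
    smul_smul] at hXσ
  have hζ1 : ζ * frobE hF ζ = 1 := by
    have := congrFun (congrFun hXσ ⟨0, by omega⟩) ⟨0, by omega⟩
    rw [Matrix.smul_apply, Matrix.one_apply_eq, smul_eq_mul, mul_one] at this
    exact this
  have hζq : ζ ^ (q + 1) = 1 := by
    rw [pow_succ']
    exact hζ1
  have hfix : (s'.1.1 ^ (q + 1)).map σ = s'.1.1 ^ (q + 1) := by
    have h1 : (s'.1.1 ^ (q + 1)).map σ = (s'.1.1.map σ) ^ (q + 1) :=
      map_pow (σ : F →+* F).mapMatrix s'.1.1 (q + 1)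
    rw [h1, hζ', smul_pow, hζq, one_smul]
  obtain ⟨M₀, hM₀⟩ := exists_descend σ j hj _ hfix
  have hY : ((s' ^ (q + 1) : ↥(Cfsg.SU n F q)).1.1) = s'.1.1 ^ (q + 1) := by
    rw [Subgroup.coe_pow, Matrix.SpecialLinearGroup.coe_pow]
  have hdet : M₀.det = 1 := by
    apply j.injective
    rw [RingHom.map_det, RingHom.mapMatrix_apply, hM₀, map_one, ← hY]
    exact (s' ^ (q + 1)).1.2
  have hunit : M₀ᵀ * M₀.map (frobE hF₀) = 1 := by
    apply map_j_injective j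
    rw [← map_j_unitary hF hF₀ j hjq, hM₀, map_j_one, ← hY]
    exact (mem_SU_iff hF _).mp (s' ^ (q + 1)).2
  refine ⟨⟨⟨M₀, hdet⟩, (mem_SU_iff hF₀ _).mpr hunit⟩, ?_⟩
  rw [← QuotientGroup.mk_pow]
  congr 1
  apply Subtype.ext
  apply Subtype.ext
  rw [hY]
  exact hM₀

theorem eig_of_fix (hn : 3 ≤ n) (g : ↥(Cfsg.GU n F q)) (τ : RingAut F)
    (hfix : ∀ s₀ : ↥(Cfsg.SU n F₀ q₀),
      (deltaU g * phiU hF τ : MulAut (Cfsg.PSU n F q))
        (QuotientGroup.mk (mapJS hF hF₀ j hjq (s₀ ^ (q + 1)))) =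
        QuotientGroup.mk (mapJS hF hF₀ j hjq (s₀ ^ (q + 1))))
    (u₀ : Fin n → F₀) (v : Fin n → F) (hv : v = fun i => j (u₀ i)) (hu₀ : u₀ ≠ 0)
    (hiso : (fun l => frobE hF₀ (u₀ l)) ⬝ᵥ u₀ = 0) :
    ∃ a : F, g.1.1 *ᵥ (fun i => τ (v i)) = a • v := by
  subst hv
  obtain ⟨ε₀, hε0, hε⟩ := H17.exists_eps hF₀
  have hφu : (ε₀ • fun l => frobE hF₀ (u₀ l)) ⬝ᵥ u₀ = 0 := by
    rw [smul_dotProduct, hiso, smul_zero]
  have hmem := tv_mem_SU hF₀ u₀ ε₀ hε hφu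
  have hq0 : ((q : ℕ) : F₀) = 0 := by
    apply j.injective
    rw [map_natCast, map_zero]
    have h2 : ((q ^ 2 : ℕ) : F) = 0 := by
      rw [← hF]
      exact Nat.cast_card_eq_zero F
    rw [Nat.cast_pow] at h2
    exact (pow_eq_zero_iff two_ne_zero).mp h2
  have hpow : (⟨tv u₀ (ε₀ • fun l => frobE hF₀ (u₀ l)) hφu, hmem⟩ : ↥(Cfsg.SU n F₀ q₀)) ^ (q + 1) =
      ⟨tv u₀ (ε₀ • fun l => frobE hF₀ (u₀ l)) hφu, hmem⟩ := by
    apply Subtype.ext
    rw [Subgroup.coe_pow]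
    show (tv u₀ (ε₀ • fun l => frobE hF₀ (u₀ l)) hφu) ^ (q + 1) = _
    rw [tv_pow]
    have e2 : ((q + 1 : ℕ) : F₀) • (ε₀ • fun l => frobE hF₀ (u₀ l)) =
        ε₀ • fun l => frobE hF₀ (u₀ l) := by
      rw [Nat.cast_add, Nat.cast_one, hq0, zero_add, one_smul]
    exact tv_ext (h' := hφu) (by rw [e2])
  have h1 := hfix ⟨tv u₀ (ε₀ • fun l => frobE hF₀ (u₀ l)) hφu, hmem⟩
  rw [hpow] at h1
  have h2 := congrArg (iotaP hF (by omega : 2 ≤ n)) h1
  rw [iotaP_theta, iotaP_mk] at h2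
  have hφv : (fun i => j ((ε₀ • fun l => frobE hF₀ (u₀ l)) i)) ⬝ᵥ (fun i => j (u₀ i)) = 0 := by
    have h3 := congrArg j hφu
    rw [map_zero] at h3
    rw [← h3]
    simp only [dotProduct, map_sum, map_mul]
  have e : (mapJS hF hF₀ j hjq ⟨tv u₀ (ε₀ • fun l => frobE hF₀ (u₀ l)) hφu, hmem⟩).1 =
      tv (fun i => j (u₀ i)) (fun i => j ((ε₀ • fun l => frobE hF₀ (u₀ l)) i)) hφv := by
    apply Subtype.ext
    exact map_j_tvM j _ _
  rw [e] at h2
  have hv0 : (fun i => j (u₀ i)) ≠ 0 := by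
    intro h0
    apply hu₀
    funext i
    have h3 : j (u₀ i) = 0 := congrFun h0 i
    exact j.injective (h3.trans (map_zero j).symm)
  have hφ0 : (fun i => j ((ε₀ • fun l => frobE hF₀ (u₀ l)) i)) ≠ 0 := by
    intro h0
    apply hu₀
    funext i
    have h3 := congrFun h0 i
    simp only [Pi.smul_apply, smul_eq_mul, Pi.zero_apply] at h3
    have h4 : ε₀ * frobE hF₀ (u₀ i) = 0 := j.injective (by rw [map_zero]; exact h3)
    rcases mul_eq_zero.mp h4 with h5 | h5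
    · exact absurd h5 hε0
    · exact (map_eq_zero _).mp h5
  exact tv_eig (by omega) g.1 τ _ _ hφv hv0 hφ0 h2

include hj in
theorem fieldU_B {r f p : ℕ} [Fact r.Prime] (hq : q = r ^ f) (hf : 1 ≤ f) (hn : 3 ≤ n)
    (h32 : ¬ (n = 3 ∧ q = 2)) (hσ : orderOf σ = p) (ν : MulAut (Cfsg.PSU n F q))
    (hfix : ∀ s₀ : ↥(Cfsg.SU n F₀ q₀),
      ν (QuotientGroup.mk (mapJS hF hF₀ j hjq (s₀ ^ (q + 1)))) =
        QuotientGroup.mk (mapJS hF hF₀ j hjq (s₀ ^ (q + 1))))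
    (m : ℕ) (hm : m.Coprime p) (hpow : ν ^ m = 1) : ν = 1 := by
  obtain ⟨g, τ, rfl⟩ := aut_eq hF hq hf hn h32 ν
  obtain ⟨⟨a, ha⟩, hτfix⟩ := iso_eig_scalar hF₀ hn j g.1 τ
    (fun u₀ v hv hu₀ hiso => eig_of_fix hF hF₀ j hjq hn g τ hfix u₀ v hv hu₀ hiso)
  have hmem := mem_zpowers_of_fix σ τ (fun x hx => by
    obtain ⟨x₀, rfl⟩ := (hj x).mp hx
    exact hτfix x₀)
  obtain ⟨e, he⟩ := Subgroup.mem_zpowers_iff.mp hmem
  have hσp : σ ^ p = 1 := by
    rw [← hσ]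
    exact pow_orderOf_eq_one σ
  have hτp : τ ^ p = 1 := by
    rw [← he, ← zpow_natCast, ← _root_.zpow_mul, mul_comm, _root_.zpow_mul, zpow_natCast, hσp,
      _root_.one_zpow]
  have hτm : τ ^ m = 1 := by
    have h1 := congrArg (psiUHom hF hq hf hn h32) hpow
    rw [map_pow, map_one, psiUHom_apply] at h1
    exact h1
  have hτ1 : τ = 1 := by
    have h6 : orderOf τ ∣ Nat.gcd m p :=
      Nat.dvd_gcd (orderOf_dvd_of_pow_eq_one hτm) (orderOf_dvd_of_pow_eq_one hτp)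
    rw [Nat.Coprime] at hm
    rw [hm] at h6
    exact orderOf_eq_one_iff.mp (Nat.dvd_one.mp h6)
  haveI : Nonempty (Fin n) := ⟨⟨0, by omega⟩⟩
  have ha0 : a ≠ 0 := by
    intro h0
    apply gl_ne_zero g.1
    rw [ha, h0, zero_smul]
  rw [hτ1, phiU_one, mul_one, deltaU_eq_one_iff hF hn h32, Cfsg.Geo.mem_scalars_iff]
  exact ⟨Units.mk0 a ha0, ha⟩

end fld

end Cfsg.Agent.H50.CorePSU
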