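import Mathlib
import Cfsg.Agent.H50.CorePSUFieldB

/-!
The special case `SU_3(2)`: a non-central element of a normal subgroup produces an element of
order three.
-/

set_option autoImplicit false

open Matrix

namespace Cfsg.Agent.H50.CorePSU

open Cfsg.Agent.H50.GraphAut Cfsg.Agent.H50.AutPSL Cfsg.Agent.H50.FieldAut
open Cfsg.Agent.H50.CorePSp Cfsg.Agent.H50.GraphAutU Cfsg.Agent.H50.CorePSL
open Cfsg.Agent.H50.AutPSU Cfsg.Agent.H50.FieldAutU Cfsg.Agent.H17

theorem cube_one {R : Type*} [Ring R] (A B : R) (h2 : (2 : R) = 0) (hA : A * A = 0)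
    (hB : B * B = 0) (hABA : A * B * A = A) (hBAB : B * A * B = B) :
    ((1 + B) * (1 + A)) ^ 3 = 1 := by
  have e1 : (1 + B) * (1 + A) * ((1 + B) * (1 + A)) =
      (1 + A + B + A * B) + (2 : R) * (A + B + 2 * (B * A)) + A * A + B * B + B * B * A +
        B * (A * A) + (A * B * A - A) + (B * A * B - B) + (B * A * B - B) * A := by
    noncomm_ring
  have e2 : (1 + A + B + A * B) * ((1 + B) * (1 + A)) =
      1 + (2 : R) * (2 * A + B + B * A + A * B) + A * A + B * B + B * B * A + A * (B * B) +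
        A * (B * B) * A + (2 : R) * (A * B * A - A) := by
    noncomm_ring
  rw [hA, hB, hABA, hBAB, h2] at e1
  rw [hA, hB, hABA, h2] at e2
  simp only [zero_mul, mul_zero, add_zero, sub_self] at e1 e2
  rw [pow_succ, pow_two, e1, e2]

variable {F₀ : Type*} [Field F₀] [Fintype F₀] {q₀ : ℕ}

/-- In dimension three, orthogonal isotropic vectors are proportional. -/
theorem iso_orth_prop (hF₀ : Fintype.card F₀ = q₀ ^ 2) (u v : Fin 3 → F₀) (hu : u ≠ 0)
    (huu : Cfsg.hermForm 3 F₀ q₀ u u = 0) (hvv : Cfsg.hermForm 3 F₀ q₀ v v = 0)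
    (huv : Cfsg.hermForm 3 F₀ q₀ u v = 0) : ∃ c : F₀, v = c • u := by
  have hvu : Cfsg.hermForm 3 F₀ q₀ v u = 0 := by
    rw [← hermForm_conj 3 hF₀ u v, huv, zero_pow]
    have := two_le_of_card_sq hF₀
    omega
  have key : ∀ a b : Fin 3, a ≠ b → ∃ c : Fin 3, c ≠ a ∧ c ≠ b ∧
      (Finset.univ : Finset (Fin 3)) = {a, b, c} := by decide
  have hsum : ∀ (a b c : Fin 3), a ≠ b → c ≠ a → c ≠ b →
      (Finset.univ : Finset (Fin 3)) = {a, b, c} → ∀ f : Fin 3 → F₀,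
      ∑ i, f i = f a + f b + f c := by
    intro a b c hab hca hcb huniv f
    rw [huniv, Finset.sum_insert (by
      rw [Finset.mem_insert, Finset.mem_singleton]
      rintro (h | h)
      · exact hab h
      · exact hca h.symm), Finset.sum_pair (fun h => hcb h.symm)]
    ring
  have hminor : ∀ a b : Fin 3, a ≠ b → u a * v b = u b * v a := by
    intro a b hab
    obtain ⟨c, hca, hcb, huniv⟩ := key a b hab
    have h1 := huu
    have h3 := hvv
    have h4 := huv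
    have h5 := hvu
    unfold Cfsg.hermForm at h1 h3 h4 h5
    rw [hsum a b c hab hca hcb huniv] at h1 h3 h4 h5
    have h6 : (u a * v b - u b * v a) * frobE hF₀ (u a * v b - u b * v a) = 0 := by
      rw [map_sub, map_mul, map_mul]
      simp only [frobE_apply]
      linear_combination (v a * v a ^ q₀ + v b * v b ^ q₀) * h1 - u c * u c ^ q₀ * h3 -
        (v a * u a ^ q₀ + v b * u b ^ q₀) * h4 + u c * v c ^ q₀ * h5
    rcases mul_eq_zero.mp h6 with h7 | h7
    · exact sub_eq_zero.mp h7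
    · exact sub_eq_zero.mp ((map_eq_zero _).mp h7)
  obtain ⟨i, hi⟩ : ∃ i, u i ≠ 0 := by
    by_contra hcon
    push Not at hcon
    exact hu (funext hcon)
  refine ⟨v i / u i, ?_⟩
  funext k
  rw [Pi.smul_apply, smul_eq_mul]
  by_cases hki : k = i
  · rw [hki]
    field_simp
  · have h1 := hminor i k (Ne.symm hki)
    field_simp
    linear_combination h1

variable {n : ℕ}

/-- A non-eigenvector isotropic vector, non-orthogonal to its image, gives a commutator of order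
three which is not scalar (over the field with four elements). -/
theorem special_comm (hF₀ : Fintype.card F₀ = q₀ ^ 2) (hq₀ : q₀ = 2)
    (x : ↥(Cfsg.SU n F₀ q₀)) (u : Fin n → F₀)
    (huu : Cfsg.hermForm n F₀ q₀ u u = 0) (hnot : ¬ ∃ c : F₀, suAct x u = c • u)
    (hl : Cfsg.hermForm n F₀ q₀ u (suAct x u) ≠ 0) :
    ∃ t' : ↥(Cfsg.SU n F₀ q₀), (x * (t' * x⁻¹ * t'⁻¹)) ^ 3 = 1 ∧
      ¬ ∃ z : F₀, (x * (t' * x⁻¹ * t'⁻¹)).1.1 = z • (1 : Matrix (Fin n) (Fin n) F₀) := by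
  have h2 : (2 : F₀) = 0 := two_eq_zero_of_card hF₀ hq₀
  have hε : frobE hF₀ (1 : F₀) = -1 := by
    rw [map_one]
    linear_combination h2
  obtain ⟨φ, hφ⟩ : ∃ φ : Fin n → F₀, φ = (1 : F₀) • fun l => frobE hF₀ (u l) := ⟨_, rfl⟩
  have hφdot : ∀ w : Fin n → F₀, φ ⬝ᵥ w = Cfsg.hermForm n F₀ q₀ w u := by
    intro w
    rw [hφ, one_smul]
    unfold Cfsg.hermForm
    simp only [dotProduct, frobE_apply]
    apply Finset.sum_congr rfl
    intro i _
    ring
  have hφu : φ ⬝ᵥ u = 0 := by rw [hφdot, huu]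
  have hφu' : ((1 : F₀) • fun l => frobE hF₀ (u l)) ⬝ᵥ u = 0 := by rw [← hφ]; exact hφu
  have hmem := tv_mem_SU hF₀ u 1 hε hφu'
  obtain ⟨t', ht'⟩ : ∃ t' : ↥(Cfsg.SU n F₀ q₀),
      t' = ⟨tv u ((1 : F₀) • fun l => frobE hF₀ (u l)) hφu', hmem⟩ := ⟨_, rfl⟩
  obtain ⟨A, hA⟩ : ∃ A : Matrix (Fin n) (Fin n) F₀, A = vecMulVec u φ := ⟨_, rfl⟩
  have ht'val : t'.1.1 = 1 + A := by
    rw [ht', hA, hφ]
    rfl
  have hAA : A * A = 0 := by
    rw [hA, Matrix.vecMulVec_mul_vecMulVec, hφu, zero_smul, Matrix.vecMulVec_zero]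
  have hAv : ∀ w : Fin n → F₀, A *ᵥ w = (φ ⬝ᵥ w) • u := by
    intro w
    rw [hA, Matrix.vecMulVec_mulVec, op_smul_eq_smul]
  have hAA2 : A + A = 0 := by rw [← two_smul F₀ A, h2, zero_smul]
  have htt : t' * t' = 1 := by
    apply Subtype.ext
    apply Subtype.ext
    show t'.1.1 * t'.1.1 = 1
    rw [ht'val]
    have e : (1 + A) * (1 + A) = 1 + (A + A) + A * A := by noncomm_ring
    rw [e, hAA, hAA2, add_zero, add_zero]
  have htinv : t'⁻¹ = t' := inv_eq_of_mul_eq_one_right htt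
  obtain ⟨X, hX⟩ : ∃ X : Matrix (Fin n) (Fin n) F₀, X = x.1.1 := ⟨_, rfl⟩
  obtain ⟨Xi, hXi⟩ : ∃ Xi : Matrix (Fin n) (Fin n) F₀, Xi = (x⁻¹).1.1 := ⟨_, rfl⟩
  have hXXi : X * Xi = 1 := by
    rw [hX, hXi]
    show (x * x⁻¹).1.1 = 1
    rw [mul_inv_cancel]
    rfl
  have hXiX : Xi * X = 1 := by
    rw [hX, hXi]
    show (x⁻¹ * x).1.1 = 1
    rw [inv_mul_cancel]
    rfl
  obtain ⟨B, hB⟩ : ∃ B : Matrix (Fin n) (Fin n) F₀, B = X * A * Xi := ⟨_, rfl⟩
  obtain ⟨α, hα⟩ : ∃ α : F₀, α = φ ⬝ᵥ (X *ᵥ u) := ⟨_, rfl⟩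
  obtain ⟨β, hβ⟩ : ∃ β : F₀, β = φ ⬝ᵥ (Xi *ᵥ u) := ⟨_, rfl⟩
  have hAXA : A * X * A = α • A := by
    rw [hA, Matrix.vecMulVec_mul, Matrix.vecMulVec_mul_vecMulVec, Matrix.vecMulVec_smul,
      ← Matrix.dotProduct_mulVec, ← hα]
  have hAXiA : A * Xi * A = β • A := by
    rw [hA, Matrix.vecMulVec_mul, Matrix.vecMulVec_mul_vecMulVec, Matrix.vecMulVec_smul,
      ← Matrix.dotProduct_mulVec, ← hβ]
  have hv : X *ᵥ u = suAct x u := by rw [hX]; rfl
  have hαval : α = Cfsg.hermForm n F₀ q₀ (suAct x u) u := by rw [hα, hφdot, hv]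
  have hβval : β = Cfsg.hermForm n F₀ q₀ u (suAct x u) := by
    rw [hβ, hφdot]
    have e1 : Xi *ᵥ u = suAct x⁻¹ u := by rw [hXi]; rfl
    rw [e1, ← suAct_herm x (suAct x⁻¹ u) u, suAct_apply_inv]
  have hβ0 : β ≠ 0 := by rw [hβval]; exact hl
  have hαβ : α * β = 1 := by
    have h1 : α = β ^ q₀ := by rw [hαval, hβval, hermForm_conj n hF₀]
    rw [h1, ← pow_succ, hq₀]
    have h3 := FiniteField.pow_card_sub_one_eq_one β hβ0
    rw [hF₀, hq₀] at h3
    exact h3
  have hBB : B * B = 0 := by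
    calc B * B = X * (A * (Xi * X) * A) * Xi := by
          rw [hB]
          simp only [Matrix.mul_assoc]
      _ = 0 := by rw [hXiX, Matrix.mul_one, hAA, Matrix.mul_zero, Matrix.zero_mul]
  have hABA : A * B * A = A := by
    calc A * B * A = A * X * A * Xi * A := by
          rw [hB]
          simp only [Matrix.mul_assoc]
      _ = A := by
          rw [hAXA, Matrix.smul_mul, Matrix.smul_mul, hAXiA, smul_smul, hαβ, one_smul]
  have hBAB : B * A * B = B := by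
    calc B * A * B = X * (A * Xi * A) * X * A * Xi := by
          rw [hB]
          simp only [Matrix.mul_assoc]
      _ = β • (X * (A * X * A) * Xi) := by
          rw [hAXiA, Matrix.mul_smul, Matrix.smul_mul, Matrix.smul_mul, Matrix.smul_mul]
          simp only [Matrix.mul_assoc]
      _ = B := by
          rw [hAXA, Matrix.mul_smul, Matrix.smul_mul, smul_smul, mul_comm, hαβ, one_smul, hB]
  have hcval : (x * (t' * x⁻¹ * t'⁻¹)).1.1 = (1 + B) * (1 + A) := by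
    rw [htinv]
    show x.1.1 * (t'.1.1 * (x⁻¹).1.1 * t'.1.1) = _
    rw [ht'val, ← hX, ← hXi]
    calc X * ((1 + A) * Xi * (1 + A)) = (X * Xi + X * A * Xi) * (1 + A) := by noncomm_ring
      _ = (1 + B) * (1 + A) := by rw [hXXi, hB]
  refine ⟨t', ?_, ?_⟩
  · apply Subtype.ext
    apply Subtype.ext
    rw [Subgroup.coe_pow, Matrix.SpecialLinearGroup.coe_pow, hcval]
    have h2M : (2 : Matrix (Fin n) (Fin n) F₀) = 0 := by
      rw [← one_add_one_eq_two, ← two_smul F₀ (1 : Matrix (Fin n) (Fin n) F₀), h2, zero_smul]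
    exact cube_one A B h2M hAA hBB hABA hBAB
  · rintro ⟨z, hz⟩
    rw [hcval] at hz
    have e1 : (1 + A) *ᵥ u = u := by
      rw [Matrix.add_mulVec, Matrix.one_mulVec, hAv, hφu, zero_smul, add_zero]
    have e2 : B *ᵥ u = β • suAct x u := by
      rw [hB, ← Matrix.mulVec_mulVec, ← Matrix.mulVec_mulVec, hAv, ← hβ, Matrix.mulVec_smul, hv]
    have h1 : u + β • suAct x u = z • u := by
      have h0 : ((1 + B) * (1 + A)) *ᵥ u = (z • (1 : Matrix (Fin n) (Fin n) F₀)) *ᵥ u := by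
        rw [hz]
      rw [← Matrix.mulVec_mulVec, e1, Matrix.add_mulVec, Matrix.one_mulVec, e2,
        Matrix.smul_mulVec, Matrix.one_mulVec] at h0
      exact h0
    apply hnot
    refine ⟨β⁻¹ * (z - 1), ?_⟩
    have h3 : β • suAct x u = (z - 1) • u := by
      rw [sub_smul, one_smul, ← h1]
      abel
    rw [← smul_smul, ← h3, smul_smul, inv_mul_cancel₀ hβ0, one_smul]

end Cfsg.Agent.H50.CorePSU
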