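import Mathlib
import Cfsg.Agent.H50.CorePSUFieldC
import Cfsg.Agent.S0282

/-!
The `p'`-core of the centraliser of a field automorphism of odd prime order of `PSU_n(q)`.
-/

set_option autoImplicit false

open Matrix

namespace Cfsg.Agent.H50.CorePSU

open Cfsg.Agent.H50.GraphAut Cfsg.Agent.H50.AutPSL Cfsg.Agent.H50.FieldAut
open Cfsg.Agent.H50.CorePSp Cfsg.Agent.H50.GraphAutU Cfsg.Agent.H50.CorePSL
open Cfsg.Agent.H50.AutPSU Cfsg.Agent.H50.FieldAutU Cfsg.Agent.H17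

attribute [local instance] Cfsg.Agent.H17.suAction

variable {n : ℕ} {F : Type*} [Field F] [Fintype F] {q : ℕ} {F₀ : Type*} [Field F₀] [Fintype F₀]
  {q₀ : ℕ}

/-- A rational unitary matrix whose class has order `p`. -/
theorem exists_keyU {p : ℕ} [Fact p.Prime] (hF : Fintype.card F = q ^ 2)
    (hF₀ : Fintype.card F₀ = q₀ ^ 2) (hn : 3 ≤ n) (σ : RingAut F)
    (j : F₀ →+* F) (hj : ∀ x : F, σ x = x ↔ ∃ x₀ : F₀, j x₀ = x)
    (hjq : ∀ x₀ : F₀, j (x₀ ^ q₀) = j x₀ ^ q) (hqq : q = q₀ ^ p)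
    (hdvd : p ∣ Nat.card ↥(FixS (phiU hF σ : MulAut (Cfsg.PSU n F q)))) :
    ∃ t₀ : ↥(Cfsg.SU n F₀ q₀),
      (QuotientGroup.mk (mapJS hF hF₀ j hjq t₀) : Cfsg.PSU n F q) ≠ 1 ∧
      (QuotientGroup.mk (mapJS hF hF₀ j hjq t₀) : Cfsg.PSU n F q) ^ p = 1 := by
  classical
  have hpp : p.Prime := Fact.out
  by_cases hdq : p ∣ q + 1
  · have h1 : ((q₀ + 1 : ℕ) : ZMod p) = 0 := by
      have h2 : ((q + 1 : ℕ) : ZMod p) = 0 := (ZMod.natCast_eq_zero_iff _ _).mpr hdq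
      rw [hqq, Nat.cast_add, Nat.cast_pow, ZMod.pow_card, Nat.cast_one] at h2
      rw [Nat.cast_add, Nat.cast_one]
      exact h2
    have h3 : p ∣ Nat.card ↥(normOne F₀ q₀) := by
      rw [card_normOne hF₀]
      exact (ZMod.natCast_eq_zero_iff _ _).mp h1
    obtain ⟨x, hx⟩ := exists_prime_orderOf_dvd_card' (G := ↥(normOne F₀ q₀)) p h3
    have hxp : x ^ p = 1 := by rw [← hx]; exact pow_orderOf_eq_one x
    have hx1 : x ≠ 1 := by
      intro h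
      rw [h, orderOf_one] at hx
      exact hpp.one_lt.ne hx
    obtain ⟨a, ha⟩ : ∃ a : F₀, a = ((x : F₀ˣ) : F₀) := ⟨_, rfl⟩
    have haN : a ^ (q₀ + 1) = 1 := by
      rw [ha]
      exact (mem_normOne _).mp x.2
    have hap : a ^ p = 1 := by
      have h4 := congrArg (fun y : ↥(normOne F₀ q₀) => ((y : F₀ˣ) : F₀)) hxp
      simp only [Subgroup.coe_pow, Units.val_pow_eq_pow_val, Subgroup.coe_one, Units.val_one] at h4
      rw [ha]
      exact h4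
    have ha1 : a ≠ 1 := by
      intro h
      apply hx1
      apply Subtype.ext
      apply Units.ext
      rw [← ha, h]
      rfl
    have ha0 : a ≠ 0 := by
      rw [ha]
      exact Units.ne_zero _
    obtain ⟨i0, hi0⟩ : ∃ z : Fin n, z = ⟨0, by omega⟩ := ⟨_, rfl⟩
    obtain ⟨i1, hi1⟩ : ∃ z : Fin n, z = ⟨1, by omega⟩ := ⟨_, rfl⟩
    obtain ⟨i2, hi2⟩ : ∃ z : Fin n, z = ⟨2, by omega⟩ := ⟨_, rfl⟩
    have h01 : i0 ≠ i1 := by rw [hi0, hi1]; exact Fin.ne_of_val_ne (by norm_num)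
    have h02 : i2 ≠ i0 := by rw [hi0, hi2]; exact Fin.ne_of_val_ne (by norm_num)
    have h12 : i2 ≠ i1 := by rw [hi1, hi2]; exact Fin.ne_of_val_ne (by norm_num)
    have hab : a * a⁻¹ = 1 := mul_inv_cancel₀ ha0
    have hmem : dg i0 i1 h01 a a⁻¹ hab ∈ Cfsg.SU n F₀ q₀ := by
      rw [mem_SU_iff hF₀]
      show (dgM i0 i1 a a⁻¹)ᵀ * (dgM i0 i1 a a⁻¹).map (frobE hF₀) = 1
      rw [dgM, Matrix.diagonal_transpose, Matrix.diagonal_map (map_zero _),
        Matrix.diagonal_mul_diagonal, ← Matrix.diagonal_one]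
      congr 1
      funext i
      by_cases h1 : i = i1
      · subst h1
        rw [Function.update_self]
        show a⁻¹ * (a⁻¹) ^ q₀ = 1
        rw [← pow_succ', inv_pow, haN, inv_one]
      · rw [Function.update_of_ne h1]
        by_cases h0 : i = i0
        · subst h0
          rw [Function.update_self]
          show a * a ^ q₀ = 1
          rw [← pow_succ', haN]
        · rw [Function.update_of_ne h0]
          show 1 * frobE hF₀ 1 = 1
          rw [map_one, mul_one]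
    refine ⟨⟨dg i0 i1 h01 a a⁻¹ hab, hmem⟩, ?_, ?_⟩
    · intro h
      have h' : (QuotientGroup.mk (1 : ↥(Cfsg.SU n F q)) : Cfsg.PSU n F q) =
          QuotientGroup.mk (mapJS hF hF₀ j hjq ⟨dg i0 i1 h01 a a⁻¹ hab, hmem⟩) := h.symm
      obtain ⟨c, hc⟩ := (mkU_eq_iff hF (by omega) 1 _).mp h'
      have hc' : (dgM i0 i1 a a⁻¹).map j = c • (1 : Matrix (Fin n) (Fin n) F) := hc
      have e0 := congrFun (congrFun hc' i0) i0
      have e2 := congrFun (congrFun hc' i2) i2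
      simp [dgM, Function.update_of_ne h01, Function.update_of_ne h02,
        Function.update_of_ne h12] at e0 e2
      apply ha1
      apply j.injective
      rw [e0, ← e2, map_one]
    · rw [← QuotientGroup.mk_pow, ← map_pow]
      have e : (⟨dg i0 i1 h01 a a⁻¹ hab, hmem⟩ : ↥(Cfsg.SU n F₀ q₀)) ^ p = 1 := by
        apply Subtype.ext
        rw [Subgroup.coe_pow]
        exact dg_pow i0 i1 h01 a a⁻¹ hab p hap (by rw [inv_pow, hap, inv_one])
      rw [e, map_one]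
      rfl
  · obtain ⟨k, hk⟩ := exists_prime_orderOf_dvd_card' (G := ↥(FixS (phiU hF σ : MulAut (Cfsg.PSU n F q)))) p hdvd
    obtain ⟨s₀, hs₀⟩ := mapJS_pow hF hF₀ σ j hj hjq (by omega) k.1 k.2
    have hkp : k ^ p = 1 := by rw [← hk]; exact pow_orderOf_eq_one k
    refine ⟨s₀, ?_, ?_⟩
    · rw [hs₀]
      intro h
      have h1 : k ^ (q + 1) = 1 := by
        apply Subtype.ext
        rw [Subgroup.coe_pow]
        exact h
      have h2 := orderOf_dvd_of_pow_eq_one h1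
      rw [hk] at h2
      exact hdq h2
    · rw [hs₀, ← pow_mul, mul_comm, pow_mul]
      have h2 : k.1 ^ p = 1 := by
        have h3 := congrArg Subtype.val hkp
        rw [Subgroup.coe_pow] at h3
        exact h3
      rw [h2, one_pow]

/-- In `PSU_3(2)` every element has order dividing `72`. -/
theorem key_order_32 (hF : Fintype.card F = q ^ 2) (hF₀ : Fintype.card F₀ = q₀ ^ 2)
    (j : F₀ →+* F) (hjq : ∀ x₀ : F₀, j (x₀ ^ q₀) = j x₀ ^ q) (hn3 : n = 3) (hq₀ : q₀ = 2)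
    (t₀ : ↥(Cfsg.SU n F₀ q₀)) :
    (QuotientGroup.mk (mapJS hF hF₀ j hjq t₀) : Cfsg.PSU n F q) ^ 72 = 1 := by
  subst hn3
  subst hq₀
  have hcard : Fintype.card F₀ = 4 := by rw [hF₀]; norm_num
  have h72 := (Cfsg.Agent.S0282.result hcard).1
  have h1 : (QuotientGroup.mk t₀ : Cfsg.PSU 3 F₀ 2) ^ 72 = 1 := by
    rw [← h72]
    exact pow_card_eq_one'
  rw [← QuotientGroup.mk_pow, QuotientGroup.eq_one_iff] at h1
  rw [← QuotientGroup.mk_pow, ← map_pow]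
  exact mapJS_center hF hF₀ j hjq (by norm_num) _ h1

section fld

variable (hF : Fintype.card F = q ^ 2) (hF₀ : Fintype.card F₀ = q₀ ^ 2) (σ : RingAut F)
  (j : F₀ →+* F) (hj : ∀ x : F, σ x = x ↔ ∃ x₀ : F₀, j x₀ = x)
  (hjq : ∀ x₀ : F₀, j (x₀ ^ q₀) = j x₀ ^ q)

include hj in
theorem fieldU_step {p : ℕ} (hn : 3 ≤ n) (h32 : ¬ (n = 3 ∧ q = 2)) (h32₀ : ¬ (n = 3 ∧ q₀ = 2))
    (A : Subgroup (MulAut (Cfsg.PSU n F q))) (hinn : ∀ k : Cfsg.PSU n F q, MulAut.conj k ∈ A)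
    (N : Subgroup ↥(A ⊓ Subgroup.centralizer ({phiU hF σ} : Set (MulAut (Cfsg.PSU n F q)))))
    [N.Normal] (hcop : (Nat.card N).Coprime p) (t₀ : ↥(Cfsg.SU n F₀ q₀))
    (ht1 : (QuotientGroup.mk (mapJS hF hF₀ j hjq t₀) : Cfsg.PSU n F q) ≠ 1)
    (htp : (QuotientGroup.mk (mapJS hF hF₀ j hjq t₀) : Cfsg.PSU n F q) ^ p = 1)
    (s₀ : ↥(Cfsg.SU n F₀ q₀))
    (hsN : iotaFix A hinn (phiU hF σ)
      ⟨QuotientGroup.mk (mapJS hF hF₀ j hjq s₀), mapJS_fix hF hF₀ σ j hj hjq s₀⟩ ∈ N) :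
    (QuotientGroup.mk (mapJS hF hF₀ j hjq s₀) : Cfsg.PSU n F q) = 1 :=
  step1_abs (conjU_inj hF hn h32) A hinn (phiU hF σ) N hcop (H17.psu_simple hF₀ hn h32₀)
    ((QuotientGroup.mk' _).comp (mapJS hF hF₀ j hjq)) (mapJS_fix hF hF₀ σ j hj hjq)
    (fun z hz => mapJS_center hF hF₀ j hjq (by omega) z hz) t₀ ht1 htp s₀ hsN

include hj in
theorem fieldU_step32 (hn3 : n = 3) (hq₀ : q₀ = 2) (h32 : ¬ (n = 3 ∧ q = 2))
    (A : Subgroup (MulAut (Cfsg.PSU n F q))) (hinn : ∀ k : Cfsg.PSU n F q, MulAut.conj k ∈ A)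
    (N : Subgroup ↥(A ⊓ Subgroup.centralizer ({phiU hF σ} : Set (MulAut (Cfsg.PSU n F q)))))
    [N.Normal] (hcop : (Nat.card N).Coprime 3) (s₀ : ↥(Cfsg.SU n F₀ q₀))
    (hsN : iotaFix A hinn (phiU hF σ)
      ⟨QuotientGroup.mk (mapJS hF hF₀ j hjq s₀), mapJS_fix hF hF₀ σ j hj hjq s₀⟩ ∈ N) :
    (QuotientGroup.mk (mapJS hF hF₀ j hjq s₀) : Cfsg.PSU n F q) = 1 := by
  classical
  have hn : 3 ≤ n := by omega
  obtain ⟨ψ, hψ⟩ : ∃ ψ : ↥(Cfsg.SU n F₀ q₀) →* Cfsg.PSU n F q,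
      ∀ s, ψ s = QuotientGroup.mk (mapJS hF hF₀ j hjq s) :=
    ⟨(QuotientGroup.mk' _).comp (mapJS hF hF₀ j hjq), fun s => rfl⟩
  have hψfix : ∀ s, phiU hF σ (ψ s) = ψ s := fun s => by
    rw [hψ]
    exact mapJS_fix hF hF₀ σ j hj hjq s
  obtain ⟨ψ', hψ'⟩ : ∃ ψ' : ↥(Cfsg.SU n F₀ q₀) →* ↥(FixS (phiU hF σ)), ∀ s, (ψ' s).1 = ψ s :=
    ⟨ψ.codRestrict _ hψfix, fun s => rfl⟩
  obtain ⟨M, hM⟩ : ∃ M : Subgroup ↥(Cfsg.SU n F₀ q₀),
      M = N.comap ((iotaFix A hinn (phiU hF σ)).comp ψ') := ⟨_, rfl⟩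
  haveI : M.Normal := by
    rw [hM]
    exact Subgroup.Normal.comap inferInstance _
  have hmemM : ∀ s, s ∈ M ↔ iotaFix A hinn (phiU hF σ) (ψ' s) ∈ N := by
    intro s
    rw [hM]
    rfl
  have hinjF := iotaFix_injective A hinn (phiU hF σ) (conjU_inj hF hn h32)
  have hs₀M : s₀ ∈ M := by
    rw [hmemM]
    have e : ψ' s₀ = ⟨QuotientGroup.mk (mapJS hF hF₀ j hjq s₀),
        mapJS_fix hF hF₀ σ j hj hjq s₀⟩ := Subtype.ext (by rw [hψ', hψ])
    rw [e]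
    exact hsN
  have hkey : ∀ c : ↥(Cfsg.SU n F₀ q₀), c ∈ M → c ^ 3 = 1 →
      ∃ z : F₀, c.1.1 = z • (1 : Matrix (Fin n) (Fin n) F₀) := by
    intro c hc hc3
    have hcN : iotaFix A hinn (phiU hF σ) (ψ' c) ∈ N := (hmemM c).mp hc
    have h2 : (⟨iotaFix A hinn (phiU hF σ) (ψ' c), hcN⟩ : N) ^ Nat.card N = 1 := pow_card_eq_one'
    have h3 : iotaFix A hinn (phiU hF σ) (ψ' c) ^ Nat.card N = 1 := congrArg Subtype.val h2
    have h4 : ψ' c ^ Nat.card N = 1 := by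
      apply hinjF
      rw [map_pow, map_one]
      exact h3
    have h5 : ψ' c ^ 3 = 1 := by rw [← map_pow, hc3, map_one]
    have h6 : orderOf (ψ' c) ∣ Nat.gcd (Nat.card N) 3 :=
      Nat.dvd_gcd (orderOf_dvd_of_pow_eq_one h4) (orderOf_dvd_of_pow_eq_one h5)
    rw [Nat.Coprime] at hcop
    rw [hcop] at h6
    have h7 : ψ' c = 1 := orderOf_eq_one_iff.mp (Nat.dvd_one.mp h6)
    have h8 : (QuotientGroup.mk (mapJS hF hF₀ j hjq c) : Cfsg.PSU n F q) = 1 := by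
      rw [← hψ, ← hψ', h7]
      rfl
    have h8' : (QuotientGroup.mk (1 : ↥(Cfsg.SU n F q)) : Cfsg.PSU n F q) =
        QuotientGroup.mk (mapJS hF hF₀ j hjq c) := h8.symm
    obtain ⟨z, hz⟩ := (mkU_eq_iff hF (by omega) 1 _).mp h8'
    have hz' : c.1.1.map j = z • (1 : Matrix (Fin n) (Fin n) F) := hz
    obtain ⟨i0, hi0⟩ : ∃ z : Fin n, z = ⟨0, by omega⟩ := ⟨_, rfl⟩
    refine ⟨c.1.1 i0 i0, ?_⟩
    ext a b
    apply j.injective
    have e1 := congrFun (congrFun hz' a) b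
    have e2 := congrFun (congrFun hz' i0) i0
    rw [Matrix.map_apply, Matrix.smul_apply, smul_eq_mul] at e1 e2
    rw [Matrix.one_apply_eq, mul_one] at e2
    rw [e1, Matrix.smul_apply, smul_eq_mul, map_mul, e2]
    by_cases hab : a = b
    · subst hab
      rw [Matrix.one_apply_eq, Matrix.one_apply_eq, map_one]
    · rw [Matrix.one_apply_ne hab, Matrix.one_apply_ne hab, map_zero]
  apply mapJS_center hF hF₀ j hjq (by omega)
  apply su_central_of_fixes hF₀ (by omega)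
  intro P
  obtain ⟨u, hu, huu, hP⟩ := isoPts_exists_rep P
  have heig : ∃ c : F₀, suAct s₀ u = c • u := by
    by_contra hnot
    have hl : Cfsg.hermForm n F₀ q₀ u (suAct s₀ u) ≠ 0 := by
      intro h0
      apply hnot
      subst hn3
      exact iso_orth_prop hF₀ u (suAct s₀ u) hu huu (by rw [suAct_herm]; exact huu) h0
    obtain ⟨t', ht3, hns⟩ := special_comm hF₀ hq₀ s₀ u huu hnot hl
    exact hns (hkey _ (M.mul_mem hs₀M
      (Subgroup.Normal.conj_mem inferInstance _ (M.inv_mem hs₀M) t')) ht3)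
  obtain ⟨c, hc⟩ := heig
  apply Subtype.ext
  rw [SubMulAction.val_smul, hP]
  exact su_smul_mk s₀ u u hu hu c hc

end fld

end Cfsg.Agent.H50.CorePSU
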