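import Mathlib
import Cfsg.Agent.H50.CorePSUFieldD

/-!
The criterion for field automorphisms of odd prime order of `PSU_n(q)`.
-/

set_option autoImplicit false

open Matrix

namespace Cfsg.Agent.H50.CorePSU

open Cfsg.Agent.H50.GraphAut Cfsg.Agent.H50.AutPSL Cfsg.Agent.H50.FieldAut
open Cfsg.Agent.H50.CorePSp Cfsg.Agent.H50.GraphAutU Cfsg.Agent.H50.CorePSL
open Cfsg.Agent.H50.AutPSU Cfsg.Agent.H50.FieldAutU Cfsg.Agent.H17

variable {n : ℕ} {F : Type*} [Field F] [Fintype F] {q : ℕ} {F₀ : Type*} [Field F₀] [Fintype F₀]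
  {q₀ : ℕ}

/-- A non-trivial fixed point of a field automorphism. -/
theorem exists_fixed_ne_one (hF : Fintype.card F = q ^ 2) (hF₀ : Fintype.card F₀ = q₀ ^ 2)
    (σ : RingAut F) (j : F₀ →+* F) (hj : ∀ x : F, σ x = x ↔ ∃ x₀ : F₀, j x₀ = x)
    (hjq : ∀ x₀ : F₀, j (x₀ ^ q₀) = j x₀ ^ q) (hn : 3 ≤ n) :
    ∃ k₀ : Cfsg.PSU n F q, phiU hF σ k₀ = k₀ ∧ k₀ ≠ 1 := by
  obtain ⟨ε₀, hε0, hε⟩ := H17.exists_eps hF₀
  obtain ⟨i0, hi0⟩ : ∃ z : Fin n, z = ⟨0, by omega⟩ := ⟨_, rfl⟩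
  obtain ⟨i1, hi1⟩ : ∃ z : Fin n, z = ⟨1, by omega⟩ := ⟨_, rfl⟩
  obtain ⟨i2, hi2⟩ : ∃ z : Fin n, z = ⟨2, by omega⟩ := ⟨_, rfl⟩
  have h01 : i0 ≠ i1 := by rw [hi0, hi1]; exact Fin.ne_of_val_ne (by norm_num)
  have h02 : i0 ≠ i2 := by rw [hi0, hi2]; exact Fin.ne_of_val_ne (by norm_num)
  have h12 : i1 ≠ i2 := by rw [hi1, hi2]; exact Fin.ne_of_val_ne (by norm_num)
  obtain ⟨η, hη⟩ := exists_nrm hF₀ (-1) (by rw [map_neg, map_one])
  obtain ⟨u₀, hu₀⟩ : ∃ u₀ : Fin n → F₀, u₀ = bv i0 + η • bv i1 + (0 : F₀) • bv i2 := ⟨_, rfl⟩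
  have hiso : (fun l => frobE hF₀ (u₀ l)) ⬝ᵥ u₀ = 0 := by
    rw [hu₀, iso3 (frobE hF₀) i0 i1 i2 h01 h02 h12, map_zero, zero_mul, add_zero, mul_comm, hη]
    ring
  have hu0 : u₀ ≠ 0 := by
    intro h0
    have h1 := congrFun h0 i0
    rw [hu₀] at h1
    simp only [Pi.add_apply, Pi.smul_apply, smul_eq_mul, Pi.zero_apply] at h1
    rw [bv_same, bv_ne h01, bv_ne h02] at h1
    simp at h1
  have hφu : (ε₀ • fun l => frobE hF₀ (u₀ l)) ⬝ᵥ u₀ = 0 := by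
    rw [smul_dotProduct, hiso, smul_zero]
  have hmem := tv_mem_SU hF₀ u₀ ε₀ hε hφu
  refine ⟨QuotientGroup.mk (mapJS hF hF₀ j hjq
    ⟨tv u₀ (ε₀ • fun l => frobE hF₀ (u₀ l)) hφu, hmem⟩), mapJS_fix hF hF₀ σ j hj hjq _, ?_⟩
  intro h1
  have h2 := congrArg (iotaP hF (by omega : 2 ≤ n)) h1
  rw [iotaP_mk, map_one] at h2
  have hφv : (fun i => j ((ε₀ • fun l => frobE hF₀ (u₀ l)) i)) ⬝ᵥ (fun i => j (u₀ i)) = 0 := by
    have h3 := congrArg j hφu
    rw [map_zero] at h3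
    rw [← h3]
    simp only [dotProduct, map_sum, map_mul]
  have e : (mapJS hF hF₀ j hjq ⟨tv u₀ (ε₀ • fun l => frobE hF₀ (u₀ l)) hφu, hmem⟩).1 =
      tv (fun i => j (u₀ i)) (fun i => j ((ε₀ • fun l => frobE hF₀ (u₀ l)) i)) hφv := by
    apply Subtype.ext
    exact map_j_tvM j _ _
  rw [e] at h2
  have hv0 : (fun i => j (u₀ i)) ≠ 0 := by
    intro h0
    apply hu0
    funext i
    have h3 : j (u₀ i) = 0 := congrFun h0 i
    exact j.injective (h3.trans (map_zero j).symm)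
  have hφ0 : (fun i => j ((ε₀ • fun l => frobE hF₀ (u₀ l)) i)) ≠ 0 := by
    intro h0
    apply hu0
    funext i
    have h3 := congrFun h0 i
    simp only [Pi.smul_apply, smul_eq_mul, Pi.zero_apply] at h3
    have h4 : ε₀ * frobE hF₀ (u₀ i) = 0 := j.injective (by rw [map_zero]; exact h3)
    rcases mul_eq_zero.mp h4 with h5 | h5
    · exact absurd h5 hε0
    · exact (map_eq_zero _).mp h5
  exact mk_tv_ne_one (by omega) hv0 hφ0 h2

/-- The criterion for a standard field automorphism of odd prime order. -/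
theorem fieldU_std {r f p : ℕ} [Fact r.Prime] [Fact p.Prime] (hF : Fintype.card F = q ^ 2)
    (hq : q = r ^ f) (hf : 1 ≤ f) (hn : 3 ≤ n) (h32 : ¬ (n = 3 ∧ q = 2)) (hp2 : p ≠ 2)
    (σ : RingAut F) (hσ : orderOf σ = p)
    (A : Subgroup (MulAut (Cfsg.PSU n F q))) (hinn : ∀ k : Cfsg.PSU n F q, MulAut.conj k ∈ A) :
    Cfsg.pPrimeCore p
        ↥(A ⊓ Subgroup.centralizer ({phiU hF σ} : Set (MulAut (Cfsg.PSU n F q)))) ≠ ⊥ ↔
      Nat.Coprime p (Nat.card ↥(FixS (phiU hF σ : MulAut (Cfsg.PSU n F q)))) := by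
  classical
  have hr := (Fact.out : r.Prime)
  have hp := (Fact.out : p.Prime)
  have hodd : Odd p := hp.odd_of_ne_two hp2
  have hpf : p ∣ f := hσ ▸ odd_order_dvd hF hq hf σ (hσ.symm ▸ hodd)
  have hne : 2 * (f / p) ≠ 0 := by
    have : 0 < f / p := Nat.div_pos (Nat.le_of_dvd (by omega) hpf) hp.pos
    omega
  haveI : Fintype (GaloisField r (2 * (f / p))) := Fintype.ofFinite _
  have hF₀ : Fintype.card (GaloisField r (2 * (f / p))) = r ^ (2 * f / p) := by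
    rw [← Nat.card_eq_fintype_card, GaloisField.card r _ hne, Nat.mul_div_assoc 2 hpf]
  have hF₀' : Fintype.card (GaloisField r (2 * (f / p))) = (r ^ (f / p)) ^ 2 := by
    rw [hF₀, Nat.mul_div_assoc 2 hpf, ← pow_mul, mul_comm]
  obtain ⟨j, hj⟩ := exists_emb_fix (card_sq hq hF) σ hσ hp.pos (GaloisField r (2 * (f / p))) hF₀
  have hqq := q_eq_pow hq hpf
  have hjq := map_pow_q₀ hF₀' hqq hodd j
  constructor
  · intro hcore
    by_contra hnc
    rw [Nat.Prime.coprime_iff_not_dvd hp, not_not] at hnc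
    obtain ⟨t₀, ht1, htp⟩ := exists_keyU hF hF₀' hn σ j hj hjq hqq hnc
    apply hcore
    apply core_bot_abs A hinn (phiU hF σ) p ((QuotientGroup.mk' _).comp (mapJS hF hF₀' j hjq))
      (mapJS_fix hF hF₀' σ j hj hjq) ?_ (q + 1) (mapJS_pow hF hF₀' σ j hj hjq (by omega))
      (fun ν _ hfix m hm hpow => fieldU_B hF hF₀' σ j hj hjq hq hf hn h32 hσ ν hfix m hm hpow)
    intro N hN hcop s₀ hsN
    haveI := hN
    by_cases hsp : n = 3 ∧ r ^ (f / p) = 2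
    · have hp3 : p = 3 := by
        have h72 := key_order_32 hF hF₀' j hjq hsp.1 hsp.2 t₀
        have h1 : orderOf (QuotientGroup.mk (mapJS hF hF₀' j hjq t₀) : Cfsg.PSU n F q) = p := by
          rcases (Nat.dvd_prime hp).mp (orderOf_dvd_of_pow_eq_one htp) with h2 | h2
          · exact absurd (orderOf_eq_one_iff.mp h2) ht1
          · exact h2
        have h3 : p ∣ 72 := h1 ▸ orderOf_dvd_of_pow_eq_one h72
        have h4 : (72 : ℕ) = 2 ^ 3 * 3 ^ 2 := by norm_num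
        rw [h4] at h3
        rcases (Nat.Prime.dvd_mul hp).mp h3 with h5 | h5
        · exact absurd ((Nat.prime_dvd_prime_iff_eq hp Nat.prime_two).mp
            (hp.dvd_of_dvd_pow h5)) hp2
        · exact (Nat.prime_dvd_prime_iff_eq hp Nat.prime_three).mp (hp.dvd_of_dvd_pow h5)
      rw [hp3] at hcop
      exact fieldU_step32 hF hF₀' σ j hj hjq hsp.1 hsp.2 h32 A hinn N hcop s₀ hsN
    · exact fieldU_step hF hF₀' σ j hj hjq hn h32 hsp A hinn N hcop t₀ ht1 htp s₀ hsN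
  · intro hcop
    obtain ⟨k₀, hk₀, hk₀1⟩ := exists_fixed_ne_one hF hF₀' σ j hj hjq hn
    exact core_nontrivial_abs (conjU_inj hF hn h32) A hinn _ p hcop k₀ hk₀ hk₀1

/-- The criterion for an automorphism `δ_g φ_σ` of odd prime order `p`, `σ ≠ 1`. -/
theorem fieldU_main {r f p : ℕ} [Fact r.Prime] [Fact p.Prime] (hF : Fintype.card F = q ^ 2)
    (hq : q = r ^ f) (hf : 1 ≤ f) (hn : 3 ≤ n) (h32 : ¬ (n = 3 ∧ q = 2)) (hp2 : p ≠ 2)
    (A : Subgroup (MulAut (Cfsg.PSU n F q))) (hinn : ∀ k : Cfsg.PSU n F q, MulAut.conj k ∈ A)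
    (g : ↥(Cfsg.GU n F q)) (σ : RingAut F) (hσ1 : σ ≠ 1)
    (hord : orderOf (deltaU g * phiU hF σ : MulAut (Cfsg.PSU n F q)) = p) :
    Cfsg.pPrimeCore p ↥(A ⊓ Subgroup.centralizer
        ({deltaU g * phiU hF σ} : Set (MulAut (Cfsg.PSU n F q)))) ≠ ⊥ ↔
      Nat.Coprime p (Nat.card ↥(FixS (deltaU g * phiU hF σ : MulAut (Cfsg.PSU n F q)))) := by
  classical
  have hr := (Fact.out : r.Prime)
  have hp : p.Prime := Fact.out
  have hxp : (deltaU g * phiU hF σ : MulAut (Cfsg.PSU n F q)) ^ p = 1 := by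
    rw [← hord]
    exact pow_orderOf_eq_one _
  have hσp : σ ^ p = 1 := by
    have h1 := congrArg (psiUHom hF hq hf hn h32) hxp
    rw [map_pow, map_one, psiUHom_apply] at h1
    exact h1
  have hσ : orderOf σ = p := by
    rcases (Nat.dvd_prime hp).mp (orderOf_dvd_of_pow_eq_one hσp) with h2 | h2
    · exact absurd (orderOf_eq_one_iff.mp h2) hσ1
    · exact h2
  have hodd : Odd p := hp.odd_of_ne_two hp2
  have hpf : p ∣ f := hσ ▸ odd_order_dvd hF hq hf σ (hσ.symm ▸ hodd)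
  have hne : 2 * (f / p) ≠ 0 := by
    have : 0 < f / p := Nat.div_pos (Nat.le_of_dvd (by omega) hpf) hp.pos
    omega
  haveI : Fintype (GaloisField r (2 * (f / p))) := Fintype.ofFinite _
  have hF₀ : Fintype.card (GaloisField r (2 * (f / p))) = r ^ (2 * f / p) := by
    rw [← Nat.card_eq_fintype_card, GaloisField.card r _ hne, Nat.mul_div_assoc 2 hpf]
  have hF₀' : Fintype.card (GaloisField r (2 * (f / p))) = (r ^ (f / p)) ^ 2 := by
    rw [hF₀, Nat.mul_div_assoc 2 hpf, ← pow_mul, mul_comm]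
  obtain ⟨j, hj⟩ := exists_emb_fix (card_sq hq hF) σ hσ hp.pos (GaloisField r (2 * (f / p))) hF₀
  have hqq := q_eq_pow hq hpf
  have hjq := map_pow_q₀ hF₀' hqq hodd j
  obtain ⟨c, hc, hx⟩ := fieldU_conj_of_pow hF hn h32 hF₀' σ hσ hodd j hj hjq g hxp
  rw [inndiagU_eq] at hc
  obtain ⟨d, rfl⟩ := hc
  rw [deltaUHom_apply] at hx
  rw [hx]
  have hinn' : ∀ k : Cfsg.PSU n F q,
      MulAut.conj k ∈ A.comap (MulAut.conj (deltaU d : MulAut (Cfsg.PSU n F q))).toMonoidHom := by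
    intro k
    rw [Subgroup.mem_comap]
    show deltaU d * MulAut.conj k * (deltaU d)⁻¹ ∈ A
    rw [aut_conj]
    exact hinn _
  have h1 := fieldU_std hF hq hf hn h32 hp2 σ hσ
    (A.comap (MulAut.conj (deltaU d : MulAut (Cfsg.PSU n F q))).toMonoidHom) hinn'
  have h2 := core_ne_bot_congr p (conjIso A (deltaU d) (phiU hF σ : MulAut (Cfsg.PSU n F q)))
  have h3 := card_fix_conj (deltaU d) (phiU hF σ : MulAut (Cfsg.PSU n F q))
  rw [← h2, h1, h3]

end Cfsg.Agent.H50.CorePSU
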