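import Mathlib
import Cfsg.Agent.H50.CorePSUBase

/-!
Abstract versions (inside `PSL_n`) of the two steps for graph automorphisms of orthogonal type.
-/

set_option autoImplicit false

open Matrix

namespace Cfsg.Agent.H50.CorePSU

open Cfsg.Agent.H50.GraphAut Cfsg.Agent.H50.AutPSL Cfsg.Agent.H50.FieldAut
open Cfsg.Agent.H50.CorePSp Cfsg.Agent.H50.OddCore Cfsg.Agent.H50.CorePSL

variable {n : ℕ} {F : Type*} [Field F] [Fintype F]

local notation "SLn" => Matrix.SpecialLinearGroup (Fin n) F
local notation "PSLn" => Matrix.ProjectiveSpecialLinearGroup (Fin n) F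

theorem orth_A_abs (h2 : (2 : F) ≠ 0) (hn : 3 ≤ n) (d : Fin n → F) (hd : ∀ k, d k ≠ 0)
    (hgood : ∀ k l, k ≠ l → ∃ a b c, ((a = k ∧ b = l) ∨ (a = l ∧ b = k)) ∧ c ≠ a ∧ c ≠ b ∧
      d a = d c)
    (b : GL (Fin n) F) (hb : b.1 = Matrix.diagonal d)
    {Fx : Type*} [Group Fx] (κ : Fx →* PSLn) (hκ : Function.Injective κ)
    (hκfix : ∀ x, Gam b (κ x) = κ x)
    (hE : ∀ s : SLn, s ∈ sgnS → ∃ x, κ x = QuotientGroup.mk s)
    (hW : ∀ (a c : Fin n) (hac : a ≠ c), d a = d c → ∃ x, κ x = QuotientGroup.mk (wS a c hac))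
    (Hs : Subgroup Fx) [Hs.Normal] (hoddH : Odd (Nat.card Hs)) (k : Fx) (hk : k ∈ Hs) :
    k = 1 := by
  classical
  by_contra hk1
  haveI : Finite ↥Hs := Nat.finite_of_card_ne_zero (by
    intro h0
    rw [h0] at hoddH
    exact absurd hoddH (by decide))
  haveI : Nontrivial ↥Hs := ⟨⟨⟨k, hk⟩, 1, fun h => hk1 (congrArg Subtype.val h)⟩⟩
  have hpowH : ∀ g : ↥Hs, g ^ Nat.card Hs = 1 := fun g => pow_card_eq_one'
  obtain ⟨ιE, hιE⟩ := exists_lift_hom κ hκ
    ((QuotientGroup.mk' _).comp (sgnS (n := n) (F := F)).subtype) (fun s => hE s.1 s.2)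
  have hιE' : ∀ s : ↥(sgnS (n := n) (F := F)), κ (ιE s) = QuotientGroup.mk s.1 := hιE
  obtain ⟨ρ, hρdef⟩ : ∃ ρ : ↥(sgnS (n := n) (F := F)) →* MulAut ↥Hs,
      ρ = (MulAut.conjNormal (H := Hs)).comp ιE := ⟨_, rfl⟩
  have hρ : ∀ (s : ↥(sgnS (n := n) (F := F))) (g : ↥Hs),
      κ ((ρ s g : ↥Hs) : Fx) = QuotientGroup.mk s.1 * κ g.1 * (QuotientGroup.mk s.1)⁻¹ := by
    intro s g
    rw [hρdef, MonoidHom.comp_apply, MulAut.conjNormal_apply, map_mul, map_mul, map_inv, hιE']
  have hE2 : ∀ e ∈ ρ.range, e * e = 1 := by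
    rintro _ ⟨s, rfl⟩
    rw [← map_mul]
    have : s * s = 1 := Subtype.ext (sgnS_sq s.1 s.2)
    rw [this, map_one]
  have hC : ∀ g : ↥Hs, (∀ e ∈ ρ.range, e g = g) → g = 1 := by
    intro g hg
    obtain ⟨x, hx⟩ := QuotientGroup.mk_surjective (κ g.1)
    have hxfix : Gam b (QuotientGroup.mk x : PSLn) = QuotientGroup.mk x := by
      rw [hx]
      exact hκfix _
    have h4 : (QuotientGroup.mk x : PSLn) ^ 4 = 1 := by
      apply cent_sgn h2 hn d hd b hb x hxfix
      intro i j hij
      have h1 := hg (ρ ⟨epsS i j hij, epsS_mem i j hij⟩) ⟨_, rfl⟩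
      have h2' := congrArg (fun t : ↥Hs => κ t.1) h1
      simp only [hρ] at h2'
      rw [hx]
      exact h2'
    have h5 : g ^ (2 ^ 2) = 1 := by
      apply Subtype.ext
      apply hκ
      rw [Subgroup.coe_pow, map_pow, OneMemClass.coe_one, map_one, ← hx]
      exact h4
    exact eq_one_of_odd_of_pow_two g _ 2 hoddH (hpowH g) h5
  obtain ⟨z, hz1, hzE, hzW⟩ := exists_core_elt hoddH inferInstance ρ.range hE2 hC
  obtain ⟨x, hx⟩ := QuotientGroup.mk_surjective (κ z.1)
  have hxfix : Gam b (QuotientGroup.mk x : PSLn) = QuotientGroup.mk x := by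
    rw [hx]
    exact hκfix _
  have h8 : (QuotientGroup.mk x : PSLn) ^ 8 = 1 := by
    apply core_elt_trivial h2 hn d hd hgood b hb x hxfix
    · intro i j hij
      have h1 := hzE (ρ ⟨epsS i j hij, epsS_mem i j hij⟩) ⟨_, rfl⟩
      rcases h1 with h1 | h1
      · left
        have h2' := congrArg (fun t : ↥Hs => κ t.1) h1
        simp only [hρ] at h2'
        rw [hx]
        exact h2'
      · right
        have h2' := congrArg (fun t : ↥Hs => κ t.1) h1
        simp only [hρ, Subgroup.coe_inv, map_inv] at h2'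
        rw [hx]
        exact h2'
    · intro a c hac hdac
      obtain ⟨wF, hwF⟩ := hW a c hac hdac
      have hnorm : ∀ e ∈ ρ.range,
          (MulAut.conjNormal (H := Hs) wF)⁻¹ * e * MulAut.conjNormal wF ∈ ρ.range := by
        rintro _ ⟨s, rfl⟩
        refine ⟨⟨(wS a c hac)⁻¹ * s.1 * wS a c hac, sgnS_conj a c hac s.1 s.2⟩, ?_⟩
        rw [hρdef, MonoidHom.comp_apply, MonoidHom.comp_apply, ← map_inv, ← map_mul, ← map_mul]
        congr 1
        apply hκ
        rw [hιE', map_mul, map_mul, map_inv, hwF, hιE']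
        rfl
      have h1 := hzW (MulAut.conjNormal wF) hnorm
      have h2' := congrArg (fun t : ↥Hs => κ t.1) h1
      simp only [Subgroup.coe_mul, MulAut.conjNormal_apply, map_mul, map_inv, hwF] at h2'
      rw [hx]
      exact h2'
  have h9 : z ^ (2 ^ 3) = 1 := by
    apply Subtype.ext
    apply hκ
    rw [Subgroup.coe_pow, map_pow, OneMemClass.coe_one, map_one, ← hx]
    exact h8
  exact hz1 (eq_one_of_odd_of_pow_two z _ 3 hoddH (hpowH z) h9)

theorem map_sg (τ : RingAut F) (a k : Fin n) : τ (sg a k : F) = sg a k := by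
  unfold sg
  split_ifs <;> simp

theorem map_Wm (τ : RingAut F) (a c : Fin n) : (Wm (F := F) a c).map τ = Wm a c := by
  ext k l
  rw [Matrix.map_apply]
  unfold Wm
  rw [map_mul, map_sg]
  split_ifs <;> simp

/-- An automorphism of `PSL_n` fixing the classes of the rational isometries of a diagonal form:
its linear part is diagonal and its field part fixes the rational elements. -/
theorem orth_B_abs (h2 : (2 : F) ≠ 0) (hn : 3 ≤ n) (d : Fin n → F) (hd : ∀ k, d k ≠ 0)
    (hgood : ∀ k l, k ≠ l → ∃ a b c, ((a = k ∧ b = l) ∨ (a = l ∧ b = k)) ∧ c ≠ a ∧ c ≠ b ∧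
      d a = d c)
    (τ₀ : RingAut F) (hdτ : ∀ k, τ₀ (d k) = d k)
    (h : GL (Fin n) F) (σ : RingAut F)
    (hfix : ∀ M : SLn, M.1.map τ₀ = M.1 → M.1ᵀ * Matrix.diagonal d * M.1 = Matrix.diagonal d →
      (delta h * phi σ : MulAut PSLn) (QuotientGroup.mk M) = QuotientGroup.mk M) :
    (∀ k l, k ≠ l → h.1 k l = 0) ∧ ∀ t : F, τ₀ t = t → σ t = t := by
  classical
  have hE : ∀ (i j : Fin n) (hij : i ≠ j),
      (delta h * phi σ : MulAut PSLn) (QuotientGroup.mk (epsS i j hij)) =
        QuotientGroup.mk (epsS i j hij) := by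
    intro i j hij
    apply hfix
    · rw [map_epsS, epsS_val]
    · rw [epsS_val, Matrix.diagonal_transpose, Matrix.diagonal_mul_diagonal,
        Matrix.diagonal_mul_diagonal]
      congr 1
      funext k
      have := sv_mul_self (F := F) i j k
      linear_combination (d k) * this
  have hW : ∀ (a c : Fin n) (hac : a ≠ c), d a = d c →
      (delta h * phi σ : MulAut PSLn) (QuotientGroup.mk (wS a c hac)) =
        QuotientGroup.mk (wS a c hac) := by
    intro a c hac hdac
    apply hfix
    · rw [wS_val, map_Wm]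
    · rw [wS_val, Wm_iso a c d hdac]
  have hcomE : ∀ (a c : Fin n), a ≠ c → d a = d c →
      ∀ k l, h.1 k l * sv a c l = sv a c k * h.1 k l := by
    intro a c hac hdac k l
    obtain ⟨e, hea, hec⟩ := exists_third hn a c
    have h1 : thetaS h σ (epsS a c hac) = epsS a c hac := by
      conv_lhs => rw [epsS_comm a c e hac (Ne.symm hec) (Ne.symm hea)]
      conv_rhs => rw [epsS_comm a c e hac (Ne.symm hec) (Ne.symm hea)]
      exact theta_comm _ _ _ (theta_scalar h σ _ (hW a c hac hdac))
        (theta_scalar h σ _ (hE c e (Ne.symm hec)))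
    have h3 : (thetaS h σ (epsS a c hac)).1 = (1 : F) • (epsS (F := F) a c hac).1 := by
      rw [h1, one_smul]
    have h4 := theta_mul_right h σ _ 1 h3
    rw [map_epsS, one_smul, epsS_val] at h4
    have h5 := congrFun (congrFun h4 k) l
    rw [Matrix.mul_diagonal, Matrix.diagonal_mul] at h5
    exact h5
  have hoff : ∀ k l, k ≠ l → h.1 k l = 0 := by
    intro k l hkl
    obtain ⟨a, b', c, hab', hca, hcb, hdac⟩ := hgood k l hkl
    have hac : a ≠ c := fun h => hca h.symm
    have hab : a ≠ b' := by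
      rcases hab' with ⟨rfl, rfl⟩ | ⟨rfl, rfl⟩
      · exact hkl
      · exact fun h => hkl h.symm
    have hsa : sv (F := F) a c a = -1 := by simp [sv]
    have hsb : sv (F := F) a c b' = 1 := by simp [sv, hab.symm, Ne.symm hcb]
    rcases hab' with ⟨rfl, rfl⟩ | ⟨rfl, rfl⟩
    · have h1 := hcomE a c hac hdac a b'
      rw [hsa, hsb] at h1
      have h3 : (2 : F) * h.1 a b' = 0 := by linear_combination h1
      rcases mul_eq_zero.mp h3 with h4 | h4
      · exact absurd h4 h2
      · exact h4
    · have h1 := hcomE a c hac hdac b' a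
      rw [hsa, hsb] at h1
      have h3 : (2 : F) * h.1 b' a = 0 := by linear_combination -h1
      rcases mul_eq_zero.mp h3 with h4 | h4
      · exact absurd h4 h2
      · exact h4
  refine ⟨hoff, ?_⟩
  have hrot : ∀ (a c : Fin n), a ≠ c → d a = d c → ∀ t : F, τ₀ t = t → 1 + t * t ≠ 0 →
      h.1 c c * σ t = h.1 a a * t := by
    intro a c hac hdac t htτ ht
    obtain ⟨e, hea, hec⟩ := exists_third hn a c
    obtain ⟨v, hv⟩ : ∃ v : Fin n → F, v = fun k => if k = a then 1 else if k = c then t else 0 :=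
      ⟨_, rfl⟩
    have hva : v a = 1 := by rw [hv]; simp
    have hvc : v c = t := by rw [hv]; simp [hac.symm]
    have hve : v e = 0 := by rw [hv]; simp [hea, hec]
    have hvτ : ∀ k, τ₀ (v k) = v k := by
      intro k
      by_cases hka : k = a
      · rw [hka, hva, map_one]
      · by_cases hkc : k = c
        · rw [hkc, hvc]
          exact htτ
        · have : v k = 0 := by rw [hv]; simp [hka, hkc]
          rw [this, map_zero]
    have hQv : v ⬝ᵥ (fun k => d k * v k) = d a * (1 + t * t) := by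
      rw [dotProduct, Finset.sum_eq_add a c hac, hva, hvc, hdac]
      · ring
      · intro k _ hk
        have : v k = 0 := by rw [hv]; simp [hk.1, hk.2]
        rw [this, zero_mul]
      · intro h0
        exact absurd (Finset.mem_univ _) h0
      · intro h0
        exact absurd (Finset.mem_univ _) h0
    have hQ : v ⬝ᵥ (fun k => d k * v k) ≠ 0 := by
      rw [hQv]
      exact mul_ne_zero (hd a) ht
    obtain ⟨κ, hκ⟩ : ∃ κ : F, κ = -2 / (v ⬝ᵥ (fun k => d k * v k)) := ⟨_, rfl⟩
    have hκ0 : κ ≠ 0 := by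
      rw [hκ]
      exact div_ne_zero (neg_ne_zero.mpr h2) hQ
    have hκτ : τ₀ κ = κ := by
      rw [hκ, hQv, map_div₀, map_neg, map_mul, map_add, map_mul, hdτ, htτ, map_one]
      congr 2
      exact map_ofNat τ₀ 2
    obtain ⟨R, hR⟩ : ∃ R : SLn, R = ⟨rotM a d v, rotM_det a d v hQ⟩ := ⟨_, rfl⟩
    have hRfix : (delta h * phi σ : MulAut PSLn) (QuotientGroup.mk R) = QuotientGroup.mk R := by
      apply hfix
      · rw [hR]
        ext k l
        show τ₀ (rotM a d v k l) = rotM a d v k l
        rw [rotM_apply, ← hκ]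
        have e1 : τ₀ (if k = l then (1 : F) else 0) = if k = l then 1 else 0 := by
          split_ifs <;> simp
        rw [map_mul, map_add, map_mul, map_mul, map_mul, map_sg, e1, hvτ, hvτ, hκτ, hdτ]
      · rw [hR]
        exact rotM_iso a d v hQ
    obtain ⟨cR, hcR⟩ := theta_scalar h σ R hRfix
    have key := theta_diag h σ hoff R cR hcR
    have hRee : R.1 e e = 1 := by
      rw [hR]
      show rotM a d v e e = 1
      rw [rotM_apply, hve]
      simp [sg, hea]
    have hRaa : R.1 a a = -(1 + κ * d a) := by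
      rw [hR]
      show rotM a d v a a = _
      rw [rotM_apply, hva, ← hκ]
      simp [sg]
    have hRca : R.1 c a = t * (κ * d a) := by
      rw [hR]
      show rotM a d v c a = _
      rw [rotM_apply, hva, hvc, ← hκ]
      simp [sg, hac.symm]
    have hee := diag_ne_zero h hoff e
    have haa := diag_ne_zero h hoff a
    have hc1 : cR = 1 := by
      have h1 := key e e
      rw [hRee, map_one, mul_one, one_mul] at h1
      have h3 : h.1 e e * (cR - 1) = 0 := by linear_combination -h1
      rcases mul_eq_zero.mp h3 with h4 | h4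
      · exact absurd h4 hee
      · exact sub_eq_zero.mp h4
    have hω : σ (κ * d a) = κ * d a := by
      have h1 := key a a
      rw [hRaa, hc1, one_mul, map_neg, map_add, map_one] at h1
      have h3 : h.1 a a * (σ (κ * d a) - κ * d a) = 0 := by linear_combination -h1
      rcases mul_eq_zero.mp h3 with h4 | h4
      · exact absurd h4 haa
      · exact sub_eq_zero.mp h4
    have h1 := key c a
    rw [hRca, hc1, one_mul, map_mul, hω] at h1
    have h3 : (κ * d a) * (h.1 c c * σ t - h.1 a a * t) = 0 := by linear_combination h1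
    rcases mul_eq_zero.mp h3 with h4 | h4
    · exact absurd h4 (mul_ne_zero hκ0 (hd a))
    · exact sub_eq_zero.mp h4
  obtain ⟨k₀, l₀, hkl₀⟩ : ∃ k l : Fin n, k ≠ l := by
    refine ⟨⟨0, by omega⟩, ⟨1, by omega⟩, ?_⟩
    intro h0
    exact absurd (Fin.ext_iff.mp h0) (by norm_num)
  obtain ⟨a, b', c, -, hca, -, hdac⟩ := hgood k₀ l₀ hkl₀
  have hac : a ≠ c := fun h => hca h.symm
  have haa := diag_ne_zero h hoff a
  have h11 : (1 : F) + 1 * 1 ≠ 0 := by
    intro h0
    apply h2
    linear_combination h0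
  have hcc : h.1 c c = h.1 a a := by
    have h1 := hrot a c hac hdac 1 (map_one _) h11
    rwa [map_one, mul_one, mul_one] at h1
  have hσt : ∀ t : F, τ₀ t = t → 1 + t * t ≠ 0 → σ t = t := by
    intro t htτ ht
    have h1 := hrot a c hac hdac t htτ ht
    rw [hcc] at h1
    exact mul_left_cancel₀ haa h1
  intro t htτ
  by_cases ht : 1 + t * t ≠ 0
  · exact hσt t htτ ht
  · push Not at ht
    by_cases ht1 : 1 + (t + 1) * (t + 1) ≠ 0
    · have h1 := hσt (t + 1) (by rw [map_add, map_one, htτ]) ht1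
      rw [map_add, map_one] at h1
      exact add_right_cancel h1
    · push Not at ht1
      by_cases ht2 : 1 + (t - 1) * (t - 1) ≠ 0
      · have h1 := hσt (t - 1) (by rw [map_sub, map_one, htτ]) ht2
        rw [map_sub, map_one] at h1
        exact sub_left_injective h1
      · push Not at ht2
        exfalso
        have h4 : (2 : F) * (2 * t) = 0 := by linear_combination ht1 - ht2
        rcases mul_eq_zero.mp h4 with h5 | h5
        · exact h2 h5
        · rcases mul_eq_zero.mp h5 with h6 | h6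
          · exact h2 h6
          · rw [h6] at ht
            simp at ht

end Cfsg.Agent.H50.CorePSU
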