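import Mathlib
import Cfsg.Agent.H50.CorePSUOrthA

/-!
Graph automorphisms of orthogonal type of `PSU_n(q)`, `q` odd.
-/

set_option autoImplicit false

open Matrix

namespace Cfsg.Agent.H50.CorePSU

open Cfsg.Agent.H50.GraphAut Cfsg.Agent.H50.AutPSL Cfsg.Agent.H50.FieldAut
open Cfsg.Agent.H50.CorePSp Cfsg.Agent.H50.GraphAutU Cfsg.Agent.H50.CorePSL
open Cfsg.Agent.H50.AutPSU Cfsg.Agent.H50.OddCore

variable {n : ℕ} {F : Type*} [Field F] [Fintype F] {q : ℕ} {F₀ : Type*} [Field F₀]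

local notation "SLn" => Matrix.SpecialLinearGroup (Fin n) F
local notation "PSLn" => Matrix.ProjectiveSpecialLinearGroup (Fin n) F

/-- Change of the rational form of a datum. -/
theorem datum_change (hF : Fintype.card F = q ^ 2) {j : F₀ →+* F}
    (hj : ∀ x : F, x ^ q = x ↔ ∃ x₀ : F₀, j x₀ = x)
    {d : F} (hd : d ≠ 0) {b : ↥(Cfsg.GU n F q)} {P : GL (Fin n) F} {S₀ : GL (Fin n) F₀} {c : Fˣ}
    (D : IsDatum hF j d b P S₀ c)
    (R₀ : Matrix (Fin n) (Fin n) F₀) (hR₀ : R₀.det ≠ 0) (S₁ : GL (Fin n) F₀) (μ : F₀) (hμ : μ ≠ 0)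
    (hR : R₀ᵀ * S₀.1 * R₀ = μ • S₁.1) :
    ∃ (P' : GL (Fin n) F) (c' : Fˣ) (d' : F), d' ≠ 0 ∧ IsDatum hF j d' b P' S₁ c' := by
  have hjμ : j μ ≠ 0 := (map_ne_zero j).mpr hμ
  have hdet : (R₀.map j).det ≠ 0 := by
    have h1 : (R₀.map j).det = j R₀.det := (RingHom.map_det j R₀).symm
    rw [h1]
    exact (map_ne_zero j).mpr hR₀
  refine ⟨P * glOf (R₀.map j) hdet, c * Units.mk0 (j μ) hjμ, d * j μ, mul_ne_zero hd hjμ, ?_, ?_⟩
  · show (P.1 * R₀.map j)ᵀ * b.1.1 * (P.1 * R₀.map j) = ((c : F) * j μ) • S₁.1.map j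
    calc (P.1 * R₀.map j)ᵀ * b.1.1 * (P.1 * R₀.map j)
        = (R₀.map j)ᵀ * (P.1ᵀ * b.1.1 * P.1) * R₀.map j := by
          rw [Matrix.transpose_mul]
          simp only [Matrix.mul_assoc]
      _ = (R₀.map j)ᵀ * ((c : F) • S₀.1.map j) * R₀.map j := by rw [D.h1]
      _ = (c : F) • ((R₀ᵀ * S₀.1 * R₀).map j) := by
          rw [Matrix.mul_smul, Matrix.smul_mul, Matrix.map_mul, Matrix.map_mul,
            Matrix.transpose_map]
      _ = ((c : F) * j μ) • S₁.1.map j := by rw [hR, map_j_smul, smul_smul]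
  · show ((P.1 * R₀.map j).map (frobE hF))ᵀ * (P.1 * R₀.map j) = (d * j μ) • S₁.1.map j
    rw [GraphAutU.map_mul', map_rational hF j hj R₀]
    calc (P.1.map (frobE hF) * R₀.map j)ᵀ * (P.1 * R₀.map j)
        = (R₀.map j)ᵀ * ((P.1.map (frobE hF))ᵀ * P.1) * R₀.map j := by
          rw [Matrix.transpose_mul]
          simp only [Matrix.mul_assoc]
      _ = (R₀.map j)ᵀ * (d • S₀.1.map j) * R₀.map j := by rw [D.h2]
      _ = d • ((R₀ᵀ * S₀.1 * R₀).map j) := by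
          rw [Matrix.mul_smul, Matrix.smul_mul, Matrix.map_mul, Matrix.map_mul,
            Matrix.transpose_map]
      _ = (d * j μ) • S₁.1.map j := by rw [hR, map_j_smul, smul_smul]

/-- A symmetric form has a datum with a good diagonal rational form. -/
theorem exists_orth_datum [Fintype F₀] (hF : Fintype.card F = q ^ 2) (h2 : (2 : F₀) ≠ 0)
    (hn : 3 ≤ n) {j : F₀ →+* F} (hj : ∀ x : F, x ^ q = x ↔ ∃ x₀ : F₀, j x₀ = x)
    (b : ↥(Cfsg.GU n F q)) (hb : b.1.1ᵀ = b.1.1) :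
    ∃ (P : GL (Fin n) F) (S₁ : GL (Fin n) F₀) (d₀ : Fin n → F₀) (c : Fˣ) (dd : F), dd ≠ 0 ∧
      IsDatum hF j dd b P S₁ c ∧ S₁.1 = Matrix.diagonal d₀ ∧ (∀ k, d₀ k ≠ 0) ∧
      ∀ k l, k ≠ l → ∃ a b' c', ((a = k ∧ b' = l) ∨ (a = l ∧ b' = k)) ∧ c' ≠ a ∧ c' ≠ b' ∧
        d₀ a = d₀ c' := by
  classical
  obtain ⟨P, S₀, D, hS₀⟩ := exists_datum_symm hF j hj b hb
  rcases Nat.even_or_odd' n with ⟨m, hm | hm⟩
  · have hn4 : 4 ≤ n := by omega
    obtain ⟨z, hz⟩ : ∃ z : Fin n, z = ⟨0, by omega⟩ := ⟨_, rfl⟩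
    obtain ⟨d, hd_def⟩ : ∃ d : Fin n → F₀, d = fun k => if k = z then S₀.1.det else 1 :=
      ⟨_, rfl⟩
    have hd : ∀ k, d k ≠ 0 := by
      intro k
      rw [hd_def]
      dsimp only
      split_ifs
      · exact gl_det_ne_zero S₀
      · exact one_ne_zero
    have hdet : (Matrix.diagonal d).det = S₀.1.det := by
      rw [Matrix.det_diagonal, hd_def,
        Finset.prod_ite_eq' Finset.univ z (fun _ => S₀.1.det), if_pos (Finset.mem_univ _)]
    have hgood : ∀ k l, k ≠ l → ∃ a b' c, ((a = k ∧ b' = l) ∨ (a = l ∧ b' = k)) ∧ c ≠ a ∧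
        c ≠ b' ∧ d a = d c := by
      intro k l hkl
      obtain ⟨c, hck, hcl, hcz⟩ := exists_fourth hn4 k l z
      have hdc : d c = 1 := by
        rw [hd_def]
        simp [hcz]
      by_cases hk : k = z
      · have hl : l ≠ z := fun h => hkl (hk.trans h.symm)
        refine ⟨l, k, c, Or.inr ⟨rfl, rfl⟩, hcl, hck, ?_⟩
        rw [hdc, hd_def]
        simp [hl]
      · refine ⟨k, l, c, Or.inl ⟨rfl, rfl⟩, hck, hcl, ?_⟩
        rw [hdc, hd_def]
        simp [hk]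
    have hD : (Matrix.diagonal d).det ≠ 0 := by
      rw [hdet]
      exact gl_det_ne_zero S₀
    obtain ⟨R, hR, hRb⟩ := exists_congr_of_disc h2 (Matrix.diagonal d) S₀.1
      (Matrix.diagonal_transpose d) hS₀ hD (gl_det_ne_zero S₀)
      (by rw [hdet]; exact ⟨S₀.1.det, rfl⟩)
    obtain ⟨P', c', d', hd', D'⟩ := datum_change hF hj one_ne_zero D R hR
      (glOf (Matrix.diagonal d) hD) 1 one_ne_zero (by rw [one_smul, hRb]; rfl)
    exact ⟨P', glOf (Matrix.diagonal d) hD, d, c', d', hd', D', rfl, hd, hgood⟩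
  · obtain ⟨c₁, R, hR, hRb⟩ := exists_congr_odd_dim h2 hm (1 : Matrix (Fin n) (Fin n) F₀) S₀.1
      Matrix.transpose_one hS₀ (by rw [Matrix.det_one]; exact one_ne_zero) (gl_det_ne_zero S₀)
    obtain ⟨P', c', d', hd', D'⟩ := datum_change hF hj one_ne_zero D R hR
      (1 : GL (Fin n) F₀) (c₁ : F₀) c₁.ne_zero (by rw [hRb]; rfl)
    refine ⟨P', 1, fun _ => 1, c', d', hd', D', ?_, fun _ => one_ne_zero, ?_⟩
    · rw [Units.val_one, Matrix.diagonal_one]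
    · intro k l _
      obtain ⟨c, hck, hcl⟩ := CorePSL.exists_third hn k l
      exact ⟨k, l, c, Or.inl ⟨rfl, rfl⟩, hck, hcl, rfl⟩

/-- Rational isometries give elements of the fixed group, in the coordinates given by `P`. -/
theorem rat_kappa (hF : Fintype.card F = q ^ 2) (hn : 3 ≤ n) (h32 : ¬ (n = 3 ∧ q = 2))
    {j : F₀ →+* F} (hj : ∀ x : F, x ^ q = x ↔ ∃ x₀ : F₀, j x₀ = x)
    {d : F} {b : ↥(Cfsg.GU n F q)} {P : GL (Fin n) F} {S₀ : GL (Fin n) F₀} {c : Fˣ}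
    (D : IsDatum hF j d b P S₀ c) (M : SLn) (hM : M.1.map (frobE hF) = M.1)
    (hiso : M.1ᵀ * S₀.1.map j * M.1 = S₀.1.map j) :
    ∃ x : ↥(FixS (GamU hF b)), iotaP hF (by omega) x.1 = delta P (QuotientGroup.mk M) := by
  obtain ⟨s, hs1, hs2⟩ := rat_fix hF hn h32 hj D M hM hiso
  exact ⟨⟨QuotientGroup.mk s, hs2⟩, iotaP_conj hF (by omega) P s M hs1⟩

section main

variable (hF : Fintype.card F = q ^ 2) (h2 : (2 : F) ≠ 0) (hn : 3 ≤ n) (h32 : ¬ (n = 3 ∧ q = 2))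
  {j : F₀ →+* F} (hj : ∀ x : F, x ^ q = x ↔ ∃ x₀ : F₀, j x₀ = x)
  {dd : F} {b : ↥(Cfsg.GU n F q)} {P : GL (Fin n) F} {S₁ : GL (Fin n) F₀} {c : Fˣ}
  (D : IsDatum hF j dd b P S₁ c) (d₀ : Fin n → F₀) (hS : S₁.1 = Matrix.diagonal d₀)
  (hd₀ : ∀ k, d₀ k ≠ 0)
  (hgood : ∀ k l, k ≠ l → ∃ a b' c', ((a = k ∧ b' = l) ∨ (a = l ∧ b' = k)) ∧ c' ≠ a ∧ c' ≠ b' ∧
    d₀ a = d₀ c')

include h2 hn h32 hj D hS hd₀ hgood

theorem orthU_A (A : Subgroup (MulAut (Cfsg.PSU n F q)))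
    (hinn : ∀ k : Cfsg.PSU n F q, MulAut.conj k ∈ A)
    (N : Subgroup ↥(A ⊓ Subgroup.centralizer ({GamU hF b} : Set (MulAut (Cfsg.PSU n F q)))))
    [N.Normal] (hodd : Odd (Nat.card N)) (k : ↥(FixS (GamU hF b)))
    (hk : iotaFix A hinn (GamU hF b) k ∈ N) : k = 1 := by
  classical
  obtain ⟨d, hd_def⟩ : ∃ d : Fin n → F, d = fun k => j (d₀ k) := ⟨_, rfl⟩
  have hd : ∀ k, d k ≠ 0 := by
    intro k
    rw [hd_def]
    exact (map_ne_zero j).mpr (hd₀ k)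
  have hgood' : ∀ k l, k ≠ l → ∃ a b' c', ((a = k ∧ b' = l) ∨ (a = l ∧ b' = k)) ∧ c' ≠ a ∧
      c' ≠ b' ∧ d a = d c' := by
    intro k l hkl
    obtain ⟨a, b', c', h1, h3, h4, h5⟩ := hgood k l hkl
    refine ⟨a, b', c', h1, h3, h4, ?_⟩
    rw [hd_def]
    show j (d₀ a) = j (d₀ c')
    rw [h5]
  have hS' : S₁.1.map j = Matrix.diagonal d := by
    rw [hS, Matrix.diagonal_map (map_zero j), hd_def]
  have hdD : (Matrix.diagonal d).det ≠ 0 := by
    rw [Matrix.det_diagonal]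
    exact Finset.prod_ne_zero_iff.mpr (fun k _ => hd k)
  obtain ⟨bS, hbS⟩ : ∃ bS : GL (Fin n) F, bS.1 = Matrix.diagonal d := ⟨glOf _ hdD, rfl⟩
  have hinjF := iotaFix_injective A hinn (GamU hF b) (conjU_inj hF hn h32)
  obtain ⟨κ, hκdef⟩ : ∃ κ : ↥(FixS (GamU hF b)) →* PSLn,
      ∀ x, κ x = (delta P)⁻¹ (iotaP hF (by omega) x.1) :=
    ⟨((delta P)⁻¹ : MulAut PSLn).toMonoidHom.comp
      ((iotaP hF (by omega)).comp (FixS (GamU hF b)).subtype), fun x => rfl⟩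
  have hκ : Function.Injective κ := by
    intro x y hxy
    rw [hκdef, hκdef] at hxy
    apply Subtype.ext
    apply iotaP_injective hF (by omega)
    exact ((delta P)⁻¹ : MulAut PSLn).injective hxy
  have hκrat : ∀ M : SLn, M.1.map (frobE hF) = M.1 →
      M.1ᵀ * Matrix.diagonal d * M.1 = Matrix.diagonal d → ∃ x, κ x = QuotientGroup.mk M := by
    intro M hM hiso
    obtain ⟨x, hx⟩ := rat_kappa hF hn h32 hj D M hM (by rw [hS']; exact hiso)
    refine ⟨x, ?_⟩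
    rw [hκdef, hx]
    exact MulAut.inv_apply_self _ _ _
  have hκfix : ∀ x, Gam bS (κ x) = κ x := by
    intro x
    obtain ⟨s, hs⟩ := QuotientGroup.mk_surjective x.1
    have hx2 : GamU hF b (QuotientGroup.mk s) = QuotientGroup.mk s := by
      rw [hs]
      exact x.2
    obtain ⟨c', hc'⟩ := (fixU_iff hF hn h32 b s).mp hx2
    have hM : (conjSL P⁻¹ s.1).1 = (P⁻¹).1 * s.1.1 * P.1 := by rw [conjSL_val, inv_inv]
    have e : κ x = QuotientGroup.mk (conjSL P⁻¹ s.1) := by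
      rw [hκdef, ← hs, iotaP_mk, ← delta_inv, delta_mk]
    rw [e, fix_Gam_iff]
    refine ⟨c', ?_⟩
    rw [hbS, hM]
    exact conj_isom P b.1.1 (Matrix.diagonal d) c c.ne_zero (by rw [← hS']; exact D.h1) s.1.1 c' hc'
  have hE : ∀ s : SLn, s ∈ sgnS → ∃ x, κ x = QuotientGroup.mk s := by
    intro s hs
    obtain ⟨v, hv, hsv⟩ := hs
    have hv1 : ∀ i, frobE hF (v i) = v i := by
      intro i
      have h3 : (v i - 1) * (v i + 1) = 0 := by linear_combination hv i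
      rcases mul_eq_zero.mp h3 with h4 | h4
      · rw [sub_eq_zero.mp h4, map_one]
      · rw [eq_neg_of_add_eq_zero_left h4, map_neg, map_one]
    apply hκrat
    · rw [hsv, Matrix.diagonal_map (map_zero _)]
      congr 1
      funext i
      exact hv1 i
    · rw [hsv, Matrix.diagonal_transpose, Matrix.diagonal_mul_diagonal,
        Matrix.diagonal_mul_diagonal]
      congr 1
      funext i
      have := hv i
      linear_combination (d i) * this
  have hW : ∀ (a c : Fin n) (hac : a ≠ c), d a = d c →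
      ∃ x, κ x = QuotientGroup.mk (wS a c hac) := by
    intro a c hac hdac
    apply hκrat
    · rw [wS_val, map_Wm]
    · rw [wS_val, Wm_iso a c d hdac]
  obtain ⟨Hs, hHs⟩ : ∃ Hs : Subgroup ↥(FixS (GamU hF b)),
      Hs = N.comap (iotaFix A hinn (GamU hF b)) := ⟨_, rfl⟩
  haveI : Hs.Normal := by
    rw [hHs]
    exact Subgroup.Normal.comap inferInstance _
  have hoddH : Odd (Nat.card Hs) := by
    have h1 : Nat.card Hs ∣ Nat.card N := by
      rw [hHs]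
      exact Subgroup.card_comap_dvd_of_injective N _ hinjF
    exact Odd.of_dvd_nat hodd h1
  exact orth_A_abs h2 hn d hd hgood' bS hbS κ hκ hκfix hE hW Hs hoddH k (by rw [hHs]; exact hk)

theorem orthU_B (g : ↥(Cfsg.GU n F q)) (σ : RingAut F)
    (hcomm : (deltaU g * phiU hF σ : MulAut (Cfsg.PSU n F q)) * GamU hF b =
      GamU hF b * (deltaU g * phiU hF σ))
    (hfix : ∀ k : Cfsg.PSU n F q, GamU hF b k = k →
      (deltaU g * phiU hF σ : MulAut (Cfsg.PSU n F q)) k = k)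
    (m : ℕ) (hm : Odd m) (hpow : (deltaU g * phiU hF σ : MulAut (Cfsg.PSU n F q)) ^ m = 1)
    (hσm : σ ^ m = 1) : (deltaU g * phiU hF σ : MulAut (Cfsg.PSU n F q)) = 1 := by
  classical
  obtain ⟨d, hd_def⟩ : ∃ d : Fin n → F, d = fun k => j (d₀ k) := ⟨_, rfl⟩
  have hd : ∀ k, d k ≠ 0 := by
    intro k
    rw [hd_def]
    exact (map_ne_zero j).mpr (hd₀ k)
  have hgood' : ∀ k l, k ≠ l → ∃ a b' c', ((a = k ∧ b' = l) ∨ (a = l ∧ b' = k)) ∧ c' ≠ a ∧
      c' ≠ b' ∧ d a = d c' := by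
    intro k l hkl
    obtain ⟨a, b', c', h1, h3, h4, h5⟩ := hgood k l hkl
    refine ⟨a, b', c', h1, h3, h4, ?_⟩
    rw [hd_def]
    show j (d₀ a) = j (d₀ c')
    rw [h5]
  have hS' : S₁.1.map j = Matrix.diagonal d := by
    rw [hS, Matrix.diagonal_map (map_zero j), hd_def]
  have hdτ : ∀ k, frobE hF (d k) = d k := by
    intro k
    rw [hd_def, frobE_apply]
    exact fixed_rational j hj (d₀ k)
  obtain ⟨hoff, hσfix⟩ := orth_B_abs h2 hn d hd hgood' (frobE hF) hdτ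
    (P⁻¹ * g.1 * mapGL σ P) σ
    (fun M hM hiso => rat_theta hF hn h32 hj D g σ hfix M hM (by rw [hS']; exact hiso))
  have hmemσ := mem_zpowers_of_fix (frobE hF) σ (fun a ha => hσfix a ha)
  obtain ⟨e, he⟩ := Subgroup.mem_zpowers_iff.mp hmemσ
  have hsqF : (frobE hF : RingAut F) * frobE hF = 1 := by
    apply RingEquiv.ext
    intro a
    exact frobE_frobE hF a
  have hσ2 : σ * σ = 1 := by
    rw [← he, ← _root_.zpow_add, ← two_mul, _root_.zpow_mul, zpow_two, hsqF, _root_.one_zpow]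
  have hσ1 : σ = 1 :=
    eq_one_of_odd_of_pow_two σ m 1 hm hσm (by rw [pow_one, pow_two]; exact hσ2)
  rw [hσ1, phiU_one, mul_one] at hcomm hpow ⊢
  have e1 : P.1.map ((1 : RingAut F) : F → F) = P.1 := by
    ext i j
    rfl
  have hoff' : ∀ k l, k ≠ l → ((P⁻¹).1 * g.1.1 * P.1) k l = 0 := by
    intro k l hkl
    have h1 := hoff k l hkl
    rw [hσ1] at h1
    have e2 : ((P⁻¹ * g.1 * mapGL (1 : RingAut F) P : GL (Fin n) F) :
        Matrix (Fin n) (Fin n) F) = (P⁻¹).1 * g.1.1 * P.1.map ((1 : RingAut F) : F → F) := rfl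
    rw [e2, e1] at h1
    exact h1
  have hmem : (deltaU g : MulAut (Cfsg.PSU n F q)) ∈
      Subgroup.centralizer ({GamU hF b} : Set (MulAut (Cfsg.PSU n F q))) := by
    rw [Subgroup.mem_centralizer_iff]
    intro z hz
    rw [Set.mem_singleton_iff] at hz
    rw [hz]
    exact hcomm.symm
  obtain ⟨μ, hμ⟩ := (mem_centralizer_GamU_iff hF hn h32 g b).mp hmem
  have h3 := conj_isom P b.1.1 (Matrix.diagonal d) c c.ne_zero (by rw [← hS']; exact D.h1)
    g.1.1 μ hμ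
  have hsq := sq_scalar_of_diag d hd _ μ h3 hoff'
  have e3 : (P⁻¹).1 * g.1.1 * P.1 * ((P⁻¹).1 * g.1.1 * P.1) =
      (P⁻¹).1 * (g.1.1 * g.1.1) * P.1 := by
    calc (P⁻¹).1 * g.1.1 * P.1 * ((P⁻¹).1 * g.1.1 * P.1)
        = (P⁻¹).1 * g.1.1 * (P.1 * (P⁻¹).1) * g.1.1 * P.1 := by simp only [Matrix.mul_assoc]
      _ = (P⁻¹).1 * (g.1.1 * g.1.1) * P.1 := by
          rw [Units.mul_inv, Matrix.mul_one]
          simp only [Matrix.mul_assoc]
  have e4 : g.1.1 * g.1.1 = (μ : F) • (1 : Matrix (Fin n) (Fin n) F) := by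
    have h4 : P.1 * ((P⁻¹).1 * (g.1.1 * g.1.1) * P.1) * (P⁻¹).1 =
        P.1 * ((μ : F) • (1 : Matrix (Fin n) (Fin n) F)) * (P⁻¹).1 := by rw [← e3, hsq]
    rw [Matrix.mul_smul, Matrix.smul_mul, Matrix.mul_one, Units.mul_inv] at h4
    rw [← h4]
    calc g.1.1 * g.1.1 = (P.1 * (P⁻¹).1) * (g.1.1 * g.1.1) * (P.1 * (P⁻¹).1) := by
          rw [Units.mul_inv, Matrix.one_mul, Matrix.mul_one]
      _ = P.1 * ((P⁻¹).1 * (g.1.1 * g.1.1) * P.1) * (P⁻¹).1 := by simp only [Matrix.mul_assoc]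
  have hd2 : (deltaU g : MulAut (Cfsg.PSU n F q)) ^ (2 ^ 1) = 1 := by
    rw [pow_one, pow_two, ← deltaU_mul, deltaU_eq_one_iff hF hn h32, Cfsg.Geo.mem_scalars_iff]
    exact ⟨μ, e4⟩
  exact eq_one_of_odd_of_pow_two _ m 1 hm hpow hd2

omit hgood in
theorem orthU_even : 2 ∣ Nat.card ↥(FixS (GamU hF b)) := by
  classical
  obtain ⟨d, hd_def⟩ : ∃ d : Fin n → F, d = fun k => j (d₀ k) := ⟨_, rfl⟩
  have hS' : S₁.1.map j = Matrix.diagonal d := by
    rw [hS, Matrix.diagonal_map (map_zero j), hd_def]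
  obtain ⟨i, hi⟩ : ∃ i : Fin n, i = ⟨0, by omega⟩ := ⟨_, rfl⟩
  obtain ⟨l, hl⟩ : ∃ l : Fin n, l = ⟨1, by omega⟩ := ⟨_, rfl⟩
  have hil : i ≠ l := by
    rw [hi, hl]
    intro h0
    exact absurd (Fin.ext_iff.mp h0) (by norm_num)
  obtain ⟨x, hx⟩ := rat_kappa hF hn h32 hj D (epsS i l hil)
    (by rw [map_epsS, epsS_val])
    (by
      rw [hS', epsS_val, Matrix.diagonal_transpose, Matrix.diagonal_mul_diagonal,
        Matrix.diagonal_mul_diagonal]
      congr 1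
      funext k
      have := sv_mul_self (F := F) i l k
      linear_combination (d k) * this)
  apply two_dvd_of_invol (FixS (GamU hF b)) x.1 x.2
  · intro h0
    rw [h0, map_one] at hx
    have h1 : (delta P : MulAut PSLn) (QuotientGroup.mk (epsS i l hil)) = delta P 1 := by
      rw [← hx, map_one]
    exact epsS_ne_one h2 hn i l hil ((delta P).injective h1)
  · apply iotaP_injective hF (by omega)
    rw [map_mul, hx, ← map_mul, ← QuotientGroup.mk_mul, sgnS_sq _ (epsS_mem i l hil), map_one]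
    exact map_one _

end main

end Cfsg.Agent.H50.CorePSU
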