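import Mathlib
import Cfsg.Agent.H50.CorePSUOrth

/-!
Graph automorphisms of symplectic type of `PSU_n(q)`, `q` odd.
-/

set_option autoImplicit false

open Matrix

namespace Cfsg.Agent.H50.CorePSU

open Cfsg.Agent.H50.GraphAut Cfsg.Agent.H50.AutPSL Cfsg.Agent.H50.FieldAut
open Cfsg.Agent.H50.CorePSp Cfsg.Agent.H50.GraphAutU Cfsg.Agent.H50.CorePSL
open Cfsg.Agent.H50.AutPSU Cfsg.Agent.H50.OddCore

variable {n : ℕ} {F : Type*} [Field F] [Fintype F] {q : ℕ} {F₀ : Type*} [Field F₀]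

local notation "SLn" => Matrix.SpecialLinearGroup (Fin n) F
local notation "PSLn" => Matrix.ProjectiveSpecialLinearGroup (Fin n) F

/-- If every rational vector is an eigenvector of the semilinear map, the linear part is scalar
and the field part fixes the rational elements. -/
theorem rat_eig_scalar (hn : 3 ≤ n) (τ₀ : RingAut F) (h : GL (Fin n) F) (σ : RingAut F)
    (heig : ∀ u : Fin n → F, (∀ i, τ₀ (u i) = u i) → u ≠ 0 →
      ∃ a : F, h.1 *ᵥ (fun i => σ (u i)) = a • u) :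
    (∃ a : F, h.1 = a • (1 : Matrix (Fin n) (Fin n) F)) ∧ ∀ t : F, τ₀ t = t → σ t = t := by
  have hbvτ : ∀ l i : Fin n, τ₀ ((bv l : Fin n → F) i) = bv l i :=
    fun l i => congrFun (map_bv τ₀ l) i
  have hoff : ∀ k l, k ≠ l → h.1 k l = 0 := by
    intro k l hkl
    obtain ⟨a, ha⟩ := heig (bv l) (hbvτ l) (bv_ne_zero l)
    rw [map_bv, mulVec_bv] at ha
    have h1 := congrFun ha k
    rw [Pi.smul_apply, bv_ne hkl, smul_zero] at h1
    exact h1
  have hrel : ∀ i j : Fin n, i ≠ j → ∀ s : F, τ₀ s = s → h.1 j j * σ s = h.1 i i * s := by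
    intro i j hij s hs
    obtain ⟨k, hkj, hki⟩ := CorePSL.exists_third hn j i
    have hik : i ≠ k := fun h => hki h.symm
    have hjk : j ≠ k := fun h => hkj h.symm
    have hu : (bv i + s • bv j + (0 : F) • bv k : Fin n → F) ≠ 0 := by
      intro h0
      have h1 := congrFun h0 i
      simp only [Pi.add_apply, Pi.smul_apply, smul_eq_mul, Pi.zero_apply] at h1
      rw [bv_same, bv_ne hij, bv_ne hik] at h1
      simp at h1
    have huτ : ∀ l, τ₀ ((bv i + s • bv j + (0 : F) • bv k : Fin n → F) l) =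
        (bv i + s • bv j + (0 : F) • bv k : Fin n → F) l := by
      intro l
      have := congrFun (map_vec3 τ₀ i j k s 0) l
      rw [hs, map_zero] at this
      exact this
    obtain ⟨a, ha⟩ := heig _ huτ hu
    exact rel_of_eig h σ hoff i j k hij hik hjk s 0 a ha
  obtain ⟨z, hz⟩ : ∃ z : Fin n, z = ⟨0, by omega⟩ := ⟨_, rfl⟩
  have hdiag : ∀ i, h.1 i i = h.1 z z := by
    intro i
    by_cases hiz : i = z
    · rw [hiz]
    · have := hrel z i (Ne.symm hiz) 1 (map_one _)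
      rw [map_one, mul_one, mul_one] at this
      exact this
  refine ⟨⟨h.1 z z, ?_⟩, ?_⟩
  · ext i l
    rw [Matrix.smul_apply, Matrix.one_apply]
    by_cases hil : i = l
    · rw [if_pos hil, ← hil, hdiag i, smul_eq_mul, mul_one]
    · rw [if_neg hil, hoff i l hil, smul_zero]
  · intro t ht
    obtain ⟨m', hm'⟩ : ∃ m' : Fin n, m' = ⟨1, by omega⟩ := ⟨_, rfl⟩
    have hzm : z ≠ m' := by
      rw [hz, hm']
      intro h0
      exact absurd (Fin.ext_iff.mp h0) (by norm_num)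
    have h1 := hrel z m' hzm t ht
    rw [hdiag m'] at h1
    exact mul_left_cancel₀ (diag_ne_zero h hoff z) h1

theorem alt_tv_iso (S : Matrix (Fin n) (Fin n) F) (hbt : Sᵀ = -S) (u : Fin n → F)
    (hφu : (S *ᵥ u) ⬝ᵥ u = 0) :
    (tvM u (S *ᵥ u))ᵀ * S * tvM u (S *ᵥ u) = S := by
  rw [tvM, Matrix.transpose_add, Matrix.transpose_one, Matrix.transpose_vecMulVec]
  have e : (1 + vecMulVec (S *ᵥ u) u) * S * (1 + vecMulVec u (S *ᵥ u)) =
      S + vecMulVec (S *ᵥ u) u * S + S * vecMulVec u (S *ᵥ u) +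
        vecMulVec (S *ᵥ u) u * S * vecMulVec u (S *ᵥ u) := by
    noncomm_ring
  have h1 : u ᵥ* S = -(S *ᵥ u) := by
    rw [← Matrix.mulVec_transpose, hbt, Matrix.neg_mulVec]
  rw [e, Matrix.vecMulVec_mul, Matrix.mul_vecMulVec, Matrix.vecMulVec_mul_vecMulVec, h1,
    neg_dotProduct, hφu, neg_zero, zero_smul, Matrix.vecMulVec_zero, add_zero,
    Matrix.vecMulVec_neg, add_assoc, neg_add_cancel, add_zero]

theorem map_j_J (j : F₀ →+* F) (m : ℕ) : (J (Fin m) F₀).map j = J (Fin m) F := by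
  ext a a'
  rcases a with a | a <;> rcases a' with a' | a' <;>
    simp [Matrix.J, Matrix.one_apply, apply_ite]

theorem mk_map_one (j : F₀ →+* F) (M₀ : Matrix.SpecialLinearGroup (Fin n) F₀)
    (h : (QuotientGroup.mk M₀ : Matrix.ProjectiveSpecialLinearGroup (Fin n) F₀) = 1) :
    (QuotientGroup.mk (Matrix.SpecialLinearGroup.map j M₀) : PSLn) = 1 := by
  obtain ⟨c₀, hc₀⟩ := scalar_of_mk_eq_one M₀ h
  apply mk_eq_one_of_scalar _ (j c₀)
  show M₀.1.map j = j c₀ • (1 : Matrix (Fin n) (Fin n) F)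
  rw [hc₀, map_j_smul, Matrix.map_one j (map_zero j) (map_one j)]

section main

variable [Fintype F₀] (hF : Fintype.card F = q ^ 2) (h2 : (2 : F) ≠ 0) (hn : 3 ≤ n)
  (h32 : ¬ (n = 3 ∧ q = 2))
  {j : F₀ →+* F} (hj : ∀ x : F, x ^ q = x ↔ ∃ x₀ : F₀, j x₀ = x)
  {dd : F} (hdd : dd ≠ 0) {b : ↥(Cfsg.GU n F q)} {P : GL (Fin n) F} {S₁ : GL (Fin n) F₀} {c : Fˣ}
  (D : IsDatum hF j dd b P S₁ c) {m : ℕ} (hm : 2 ≤ m) (e : Fin m ⊕ Fin m ≃ Fin n)
  (hS : S₁.1 = reM e (J (Fin m) F₀))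

include h2 hn h32 hj hdd D hm hS

theorem exists_psi :
    ∃ ψ : Matrix.symplecticGroup (Fin m) F₀ →* Cfsg.PSU n F q,
      (∀ s, GamU hF b (ψ s) = ψ s) ∧
      (∀ z ∈ Subgroup.center (Matrix.symplecticGroup (Fin m) F₀), ψ z = 1) ∧
      ψ (SymplecticGroup.symJ (Fin m) F₀) ≠ 1 ∧
      ψ (SymplecticGroup.symJ (Fin m) F₀) * ψ (SymplecticGroup.symJ (Fin m) F₀) = 1 ∧
      ∀ k : Cfsg.PSU n F q, GamU hF b k = k → ∃ s, ψ s = k * k := by
  have e1 : ∀ s₀ : Matrix.symplecticGroup (Fin m) F₀,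
      (Matrix.SpecialLinearGroup.map j (spSL e s₀)).1 = (reM e s₀.1).map j := fun s₀ => rfl
  have hMfrob : ∀ s₀ : Matrix.symplecticGroup (Fin m) F₀,
      (Matrix.SpecialLinearGroup.map j (spSL e s₀)).1.map (frobE hF) =
        (Matrix.SpecialLinearGroup.map j (spSL e s₀)).1 := by
    intro s₀
    rw [e1]
    exact map_rational hF j hj _
  have hMiso : ∀ s₀ : Matrix.symplecticGroup (Fin m) F₀,
      (Matrix.SpecialLinearGroup.map j (spSL e s₀)).1ᵀ * S₁.1.map j *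
        (Matrix.SpecialLinearGroup.map j (spSL e s₀)).1 = S₁.1.map j := by
    intro s₀
    rw [e1, hS, ← Matrix.transpose_map, ← Matrix.map_mul, ← Matrix.map_mul, reM_transpose,
      ← reM_mul', ← reM_mul', SymplecticGroup.mem_iff'.mp s₀.2]
  obtain ⟨ψ, hψ⟩ := exists_lift_hom (iotaP hF (by omega : 2 ≤ n)) (iotaP_injective hF (by omega))
    ((delta P : MulAut PSLn).toMonoidHom.comp ((QuotientGroup.mk' _).comp
      ((Matrix.SpecialLinearGroup.map j).comp (spSL e))))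
    (fun s₀ => by
      obtain ⟨x, hx⟩ := rat_kappa hF hn h32 hj D _ (hMfrob s₀) (hMiso s₀)
      exact ⟨x.1, hx⟩)
  have hψ' : ∀ s₀ : Matrix.symplecticGroup (Fin m) F₀, iotaP hF (by omega : 2 ≤ n) (ψ s₀) =
      delta P (QuotientGroup.mk (Matrix.SpecialLinearGroup.map j (spSL e s₀))) := hψ
  have hψ1 : ∀ s₀ : Matrix.symplecticGroup (Fin m) F₀,
      (QuotientGroup.mk (spSL e s₀) : Matrix.ProjectiveSpecialLinearGroup (Fin n) F₀) = 1 →
        ψ s₀ = 1 := by
    intro s₀ h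
    apply iotaP_injective hF (by omega : 2 ≤ n)
    rw [hψ', mk_map_one j _ h, map_one, map_one]
  refine ⟨ψ, ?_, ?_, ?_, ?_, ?_⟩
  · intro s₀
    obtain ⟨x, hx⟩ := rat_kappa hF hn h32 hj D _ (hMfrob s₀) (hMiso s₀)
    have h1 : ψ s₀ = x.1 := by
      apply iotaP_injective hF (by omega : 2 ≤ n)
      rw [hψ', hx]
    rw [h1]
    exact x.2
  · intro z hz
    exact hψ1 z (spSL_center (by omega) e z hz)
  · intro h0
    have h1 := congrArg (iotaP hF (by omega : 2 ≤ n)) h0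
    rw [hψ', map_one] at h1
    have h3 : (QuotientGroup.mk (Matrix.SpecialLinearGroup.map j
        (spSL e (SymplecticGroup.symJ (Fin m) F₀))) : PSLn) = 1 :=
      (delta P).injective (h1.trans (map_one _).symm)
    have h4 : Matrix.SpecialLinearGroup.map j (spSL e (SymplecticGroup.symJ (Fin m) F₀)) =
        spSL e (SymplecticGroup.symJ (Fin m) F) := by
      apply Subtype.ext
      show (reM e (J (Fin m) F₀)).map j = reM e (J (Fin m) F)
      rw [← map_j_J j m]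
      rfl
    rw [h4] at h3
    exact spSL_J_ne (by omega) e h3
  · rw [← map_mul]
    apply hψ1
    rw [map_mul, QuotientGroup.mk_mul]
    exact spSL_J_sq e
  · intro k hk
    obtain ⟨x, rfl⟩ := QuotientGroup.mk_surjective k
    obtain ⟨c'', hc''⟩ := (fixU_iff hF hn h32 b x).mp hk
    obtain ⟨e', k₀, μ, h1, h2'⟩ := descend (by omega) hj hdd D D (suGU hF x) c'' hc''
    have h1' : x.1.1 * P.1 = (e' : F) • (P.1 * k₀.1.map j) := h1
    obtain ⟨k', hk'⟩ : ∃ k' : Matrix (Fin m ⊕ Fin m) (Fin m ⊕ Fin m) F₀, reM e k' = k₀.1 :=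
      ⟨k₀.1.submatrix e e, reM_sub e k₀.1⟩
    have h3 : k'ᵀ * J (Fin m) F₀ * k' = (μ : F₀) • J (Fin m) F₀ := by
      have h4 : reM e (k'ᵀ * J (Fin m) F₀ * k') = reM e ((μ : F₀) • J (Fin m) F₀) := by
        rw [reM_mul', reM_mul', ← reM_transpose, hk', reM_smul, ← hS]
        exact h2'
      have h5 := congrArg (fun M => M.submatrix e e) h4
      simp only [sub_reM] at h5
      exact h5
    have hμ0 : (μ : F₀) ≠ 0 := μ.ne_zero
    have hmem : ((μ : F₀)⁻¹ • (k' * k')) ∈ Matrix.symplecticGroup (Fin m) F₀ := by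
      rw [SymplecticGroup.mem_iff']
      have h4 : (k' * k')ᵀ * J (Fin m) F₀ * (k' * k') = ((μ : F₀) * μ) • J (Fin m) F₀ := by
        rw [Matrix.transpose_mul]
        calc k'ᵀ * k'ᵀ * J (Fin m) F₀ * (k' * k')
            = k'ᵀ * (k'ᵀ * J (Fin m) F₀ * k') * k' := by simp only [Matrix.mul_assoc]
          _ = ((μ : F₀) * μ) • J (Fin m) F₀ := by
              rw [h3, Matrix.mul_smul, Matrix.smul_mul, h3, smul_smul]
      rw [Matrix.transpose_smul, Matrix.smul_mul, Matrix.smul_mul, Matrix.mul_smul, h4, smul_smul,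
        smul_smul]
      have h5 : (μ : F₀)⁻¹ * (μ : F₀)⁻¹ * ((μ : F₀) * μ) = 1 := by
        field_simp
      rw [h5, one_smul]
    refine ⟨⟨_, hmem⟩, ?_⟩
    apply iotaP_injective hF (by omega : 2 ≤ n)
    rw [hψ', ← QuotientGroup.mk_mul, iotaP_mk, delta_mk, mk_eq_mk_iff]
    have hjμ : j (μ : F₀) ≠ 0 := (map_ne_zero j).mpr hμ0
    have he0 : (e' : F) ≠ 0 := e'.ne_zero
    have hee : (e' : F) * e' ≠ 0 := mul_ne_zero he0 he0
    refine ⟨(e' : F) * e' * j μ, ?_⟩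
    have hMval : (Matrix.SpecialLinearGroup.map j (spSL e ⟨_, hmem⟩)).1 =
        (j (μ : F₀))⁻¹ • (k₀.1.map j * k₀.1.map j) := by
      show (reM e ((μ : F₀)⁻¹ • (k' * k'))).map j = _
      rw [reM_smul, reM_mul', hk', map_j_smul, Matrix.map_mul, map_inv₀]
    have hxx : x.1.1 * x.1.1 * P.1 = ((e' : F) * e') • (P.1 * (k₀.1.map j * k₀.1.map j)) := by
      calc x.1.1 * x.1.1 * P.1 = x.1.1 * (x.1.1 * P.1) := Matrix.mul_assoc _ _ _
        _ = x.1.1 * ((e' : F) • (P.1 * k₀.1.map j)) := by rw [h1']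
        _ = (e' : F) • (x.1.1 * P.1 * k₀.1.map j) := by rw [Matrix.mul_smul, Matrix.mul_assoc]
        _ = (e' : F) • ((e' : F) • (P.1 * k₀.1.map j) * k₀.1.map j) := by rw [h1']
        _ = ((e' : F) * e') • (P.1 * (k₀.1.map j * k₀.1.map j)) := by
            rw [Matrix.smul_mul, smul_smul, Matrix.mul_assoc]
    have hPKK : P.1 * (k₀.1.map j * k₀.1.map j) * (P⁻¹).1 =
        ((e' : F) * e')⁻¹ • (x.1.1 * x.1.1) := by
      have h5 : P.1 * (k₀.1.map j * k₀.1.map j) = ((e' : F) * e')⁻¹ • (x.1.1 * x.1.1 * P.1) := by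
        rw [hxx, smul_smul, inv_mul_cancel₀ hee, one_smul]
      rw [h5, Matrix.smul_mul, Matrix.mul_assoc (x.1.1 * x.1.1), Units.mul_inv, Matrix.mul_one]
    rw [conjSL_val, hMval, Matrix.mul_smul, Matrix.smul_mul, hPKK, smul_smul, smul_smul]
    have h6 : (e' : F) * e' * j μ * (j (μ : F₀))⁻¹ * ((e' : F) * e')⁻¹ = 1 := by
      field_simp
    rw [h6, one_smul]
    rfl

theorem spU_A (A : Subgroup (MulAut (Cfsg.PSU n F q)))
    (hinn : ∀ k : Cfsg.PSU n F q, MulAut.conj k ∈ A)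
    (N : Subgroup ↥(A ⊓ Subgroup.centralizer ({GamU hF b} : Set (MulAut (Cfsg.PSU n F q)))))
    [N.Normal] (hodd : Odd (Nat.card N)) (k : ↥(FixS (GamU hF b)))
    (hk : iotaFix A hinn (GamU hF b) k ∈ N) : k = 1 := by
  have h2₀ : (2 : F₀) ≠ 0 := by
    intro h0
    apply h2
    have := congrArg j h0
    rwa [map_zero, map_ofNat] at this
  have hs : IsSimpleGroup (Cfsg.PSp m F₀) :=
    Cfsg.Agent.S0270.result m hm (fun _ => three_le_card h2₀)
  obtain ⟨ψ, h1, h3, h4, h5, h6⟩ := exists_psi hF h2 hn h32 hj hdd D hm e hS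
  exact ha_of_simple (conjU_inj hF hn h32) A hinn (GamU hF b) hs ψ h1 h3
    (SymplecticGroup.symJ (Fin m) F₀) h4 h5 h6 N hodd k hk

theorem spU_even : 2 ∣ Nat.card ↥(FixS (GamU hF b)) := by
  obtain ⟨ψ, h1, h3, h4, h5, h6⟩ := exists_psi hF h2 hn h32 hj hdd D hm e hS
  exact two_dvd_of_invol (FixS (GamU hF b)) _ (h1 (SymplecticGroup.symJ (Fin m) F₀)) h4 h5

theorem spU_B (g : ↥(Cfsg.GU n F q)) (σ : RingAut F)
    (hfix : ∀ k : Cfsg.PSU n F q, GamU hF b k = k →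
      (deltaU g * phiU hF σ : MulAut (Cfsg.PSU n F q)) k = k)
    (m' : ℕ) (hm' : Odd m') (hσm : σ ^ m' = 1) :
    (deltaU g * phiU hF σ : MulAut (Cfsg.PSU n F q)) = 1 := by
  classical
  haveI : Nonempty (Fin n) := ⟨⟨0, by omega⟩⟩
  obtain ⟨S, hSdef⟩ : ∃ S : Matrix (Fin n) (Fin n) F, S = S₁.1.map j := ⟨_, rfl⟩
  have hSt : Sᵀ = -S := by
    rw [hSdef, hS, ← Matrix.transpose_map]
    have h1 : (reM e (J (Fin m) F₀))ᵀ = -reM e (J (Fin m) F₀) := by
      rw [reM_transpose, Matrix.J_transpose]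
      rfl
    rw [h1]
    ext a a'
    simp
  have hSdet : S.det ≠ 0 := by
    rw [hSdef]
    have h1 : (S₁.1.map j).det = j S₁.1.det := (RingHom.map_det j S₁.1).symm
    rw [h1]
    exact (map_ne_zero j).mpr (gl_det_ne_zero S₁)
  have halt : ∀ u : Fin n → F, (S *ᵥ u) ⬝ᵥ u = 0 := by
    intro u
    have h1 : (S *ᵥ u) ⬝ᵥ u = -((S *ᵥ u) ⬝ᵥ u) := by
      conv_lhs => rw [dotProduct_comm, Matrix.dotProduct_mulVec, ← Matrix.mulVec_transpose, hSt,
        Matrix.neg_mulVec, neg_dotProduct]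
    have h3 : (2 : F) * ((S *ᵥ u) ⬝ᵥ u) = 0 := by linear_combination h1
    rcases mul_eq_zero.mp h3 with h4 | h4
    · exact absurd h4 h2
    · exact h4
  have hSfrob : S.map (frobE hF) = S := by
    rw [hSdef]
    exact map_rational hF j hj _
  have heig : ∀ u : Fin n → F, (∀ i, frobE hF (u i) = u i) → u ≠ 0 →
      ∃ a : F, (P⁻¹ * g.1 * mapGL σ P : GL (Fin n) F).1 *ᵥ (fun i => σ (u i)) = a • u := by
    intro u huτ hu
    have hφ0 : S *ᵥ u ≠ 0 := by
      intro h0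
      apply hu
      have h1 : S⁻¹ *ᵥ (S *ᵥ u) = u := by
        rw [Matrix.mulVec_mulVec, Matrix.nonsing_inv_mul _ (Ne.isUnit hSdet), Matrix.one_mulVec]
      rw [← h1, h0, Matrix.mulVec_zero]
    have hSu : ∀ i, frobE hF ((S *ᵥ u) i) = (S *ᵥ u) i := by
      intro i
      have h1 := RingHom.map_mulVec (frobE hF : F →+* F) S u i
      have h3 : ((frobE hF : F →+* F) : F → F) ∘ u = u := funext huτ
      have h4 : S.map ((frobE hF : F →+* F)) = S := hSfrob
      rw [h3, h4] at h1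
      exact h1
    have hfixM : GraphAutU.mapSL (frobE hF) (tv u (S *ᵥ u) (halt u)) = tv u (S *ᵥ u) (halt u) := by
      rw [mapSL_tv]
      apply tv_ext
      rw [show (fun i => frobE hF (u i)) = u from funext huτ,
        show (fun i => frobE hF ((S *ᵥ u) i)) = S *ᵥ u from funext hSu]
    have hθ := rat_theta hF hn h32 hj D g σ hfix (tv u (S *ᵥ u) (halt u))
      (by rw [← GraphAutU.mapSL_val, hfixM])
      (by
        rw [← hSdef, tv_val]
        exact alt_tv_iso S hSt u (halt u))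
    exact tv_eig (by omega) _ σ u (S *ᵥ u) (halt u) hu hφ0 hθ
  obtain ⟨⟨a, ha⟩, hσfix⟩ := rat_eig_scalar hn (frobE hF) _ σ heig
  have hmemσ := mem_zpowers_of_fix (frobE hF) σ (fun a ha => hσfix a ha)
  obtain ⟨e₁, he₁⟩ := Subgroup.mem_zpowers_iff.mp hmemσ
  have hsqF : (frobE hF : RingAut F) * frobE hF = 1 := by
    apply RingEquiv.ext
    intro a
    exact frobE_frobE hF a
  have hσ2 : σ * σ = 1 := by
    rw [← he₁, ← _root_.zpow_add, ← two_mul, _root_.zpow_mul, zpow_two, hsqF, _root_.one_zpow]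
  have hσ1 : σ = 1 :=
    eq_one_of_odd_of_pow_two σ m' 1 hm' hσm (by rw [pow_one, pow_two]; exact hσ2)
  rw [hσ1, phiU_one, mul_one]
  rw [hσ1] at ha
  have e1 : P.1.map ((1 : RingAut F) : F → F) = P.1 := by
    ext i j
    rfl
  have e2 : ((P⁻¹ * g.1 * mapGL (1 : RingAut F) P : GL (Fin n) F) :
      Matrix (Fin n) (Fin n) F) = (P⁻¹).1 * g.1.1 * P.1.map ((1 : RingAut F) : F → F) := rfl
  rw [e2, e1] at ha
  have hg : g.1.1 = a • (1 : Matrix (Fin n) (Fin n) F) := by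
    calc g.1.1 = (P.1 * (P⁻¹).1) * g.1.1 * (P.1 * (P⁻¹).1) := by
          rw [Units.mul_inv, Matrix.one_mul, Matrix.mul_one]
      _ = P.1 * ((P⁻¹).1 * g.1.1 * P.1) * (P⁻¹).1 := by simp only [Matrix.mul_assoc]
      _ = a • (1 : Matrix (Fin n) (Fin n) F) := by
          rw [ha, Matrix.mul_smul, Matrix.smul_mul, Matrix.mul_one, Units.mul_inv]
  have ha0 : a ≠ 0 := by
    intro h0
    apply gl_ne_zero g.1
    rw [hg, h0, zero_smul]
  rw [deltaU_eq_one_iff hF hn h32, Cfsg.Geo.mem_scalars_iff]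
  exact ⟨Units.mk0 a ha0, hg⟩

end main

end Cfsg.Agent.H50.CorePSU
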