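import Mathlib
import Cfsg.Agent.H50.CorePSUSp

/-!
Graph automorphisms of order two of `PSU_n(q)`, `q` odd: the odd core of the centraliser is
trivial and the fixed group has even order.
-/

set_option autoImplicit false

open Matrix

namespace Cfsg.Agent.H50.CorePSU

open Cfsg.Agent.H50.GraphAut Cfsg.Agent.H50.AutPSL Cfsg.Agent.H50.FieldAut
open Cfsg.Agent.H50.CorePSp Cfsg.Agent.H50.GraphAutU Cfsg.Agent.H50.CorePSL
open Cfsg.Agent.H50.AutPSU Cfsg.Agent.H50.OddCore

variable {n : ℕ} {F : Type*} [Field F] [Fintype F] {q : ℕ}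

theorem graphU_main {r f : ℕ} [Fact r.Prime] (hF : Fintype.card F = q ^ 2) (hq : q = r ^ f)
    (hf : 1 ≤ f) (h2 : (2 : F) ≠ 0) (hn : 3 ≤ n) (h32 : ¬ (n = 3 ∧ q = 2))
    (b : ↥(Cfsg.GU n F q)) (hord : orderOf (GamU hF b) = 2)
    (A : Subgroup (MulAut (Cfsg.PSU n F q))) (hinn : ∀ k : Cfsg.PSU n F q, MulAut.conj k ∈ A) :
    Cfsg.pPrimeCore 2 ↥(A ⊓ Subgroup.centralizer ({GamU hF b} : Set (MulAut (Cfsg.PSU n F q)))) = ⊥ ∧
      2 ∣ Nat.card ↥(FixS (GamU hF b)) := by
  classical
  haveI : Nonempty (Fin n) := ⟨⟨0, by omega⟩⟩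
  haveI : Fintype (GaloisField r f) := Fintype.ofFinite _
  have hF₀ : Fintype.card (GaloisField r f) = q := by
    rw [← Nat.card_eq_fintype_card, GaloisField.card r f (by omega), hq]
  obtain ⟨j, hj⟩ := exists_emb hF (GaloisField r f) hF₀
  have h2₀ : (2 : GaloisField r f) ≠ 0 := by
    intro h0
    apply h2
    have := congrArg j h0
    rwa [map_zero, map_ofNat] at this
  obtain ⟨c, hc⟩ := (orderOf_GamU_iff hF hn h32 b).mp hord
  rcases sq_eq_one_of_transpose b.1.1 (gl_ne_zero b.1) c hc with h | h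
  · rw [h, one_smul] at hc
    obtain ⟨P, S₁, d₀, c', dd, hdd, D, hS, hd₀, hgood⟩ := exists_orth_datum hF h2₀ hn hj b hc
    exact ⟨core_bot_ofU hF hq hf hn h32 A hinn (GamU hF b)
      (fun N hN hodd k hk => by
        haveI := hN
        exact orthU_A hF h2 hn h32 hj D d₀ hS hd₀ hgood A hinn N hodd k hk)
      (fun g σ hcomm hfix m hm hpow hσm =>
        orthU_B hF h2 hn h32 hj D d₀ hS hd₀ hgood g σ hcomm hfix m hm hpow hσm),
      orthU_even hF h2 hn h32 hj D d₀ hS hd₀⟩
  · rw [h, neg_smul, one_smul] at hc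
    rcases Nat.even_or_odd' n with ⟨m, hm | hm⟩
    · obtain ⟨ε, hε0, hε⟩ := H17.exists_eps hF
      obtain ⟨P, S₀, c', D, hS₀⟩ := exists_datum_alt hF j hj ε hε0 hε b hc
      have halt : IsAltM S₀.1 := by
        rw [altM_iff]
        refine ⟨hS₀, fun i => ?_⟩
        have h3 := congrFun (congrFun hS₀ i) i
        rw [Matrix.transpose_apply, Matrix.neg_apply] at h3
        have h4 : (2 : GaloisField r f) * S₀.1 i i = 0 := by linear_combination h3
        rcases mul_eq_zero.mp h4 with h5 | h5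
        · exact absurd h5 h2₀
        · exact h5
      obtain ⟨e⟩ : Nonempty (Fin m ⊕ Fin m ≃ Fin n) :=
        ⟨Fintype.equivFinOfCardEq (by simp [hm]; ring)⟩
      have hdJ : (reM e (J (Fin m) (GaloisField r f))).det ≠ 0 := by
        rw [reM_det]
        exact (Matrix.isUnit_det_J (Fin m) (GaloisField r f)).ne_zero
      obtain ⟨R, R', h21, h22, h23⟩ := exists_rect_alt (by rw [Fintype.card_fin, hm]) S₀.1
        (gl_det_ne_zero S₀) halt
      obtain ⟨R₀, hR₀def⟩ : ∃ R₀ : Matrix (Fin n) (Fin n) (GaloisField r f),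
          R₀ = R.submatrix (Equiv.refl (Fin n)) e.symm := ⟨_, rfl⟩
      have hR₀det : R₀.det ≠ 0 := by
        have h5 : R₀ * R'.submatrix e.symm (Equiv.refl (Fin n)) = 1 := by
          rw [hR₀def, Matrix.submatrix_mul_equiv, h21]
          exact Matrix.submatrix_one_equiv (Equiv.refl _)
        intro h0
        have h6 := congrArg Matrix.det h5
        rw [Matrix.det_mul, h0, zero_mul, Matrix.det_one] at h6
        exact zero_ne_one h6
      have hR₀S : R₀ᵀ * S₀.1 * R₀ =
          (1 : GaloisField r f) • (glOf (reM e (J (Fin m) (GaloisField r f))) hdJ).1 := by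
        rw [one_smul, glOf_val, hR₀def]
        calc (R.submatrix (Equiv.refl (Fin n)) e.symm)ᵀ * S₀.1 *
              R.submatrix (Equiv.refl (Fin n)) e.symm
            = Rᵀ.submatrix e.symm (Equiv.refl (Fin n)) *
                S₀.1.submatrix (Equiv.refl (Fin n)) (Equiv.refl (Fin n)) *
                R.submatrix (Equiv.refl (Fin n)) e.symm := rfl
          _ = (Rᵀ * S₀.1 * R).submatrix e.symm e.symm := by
              rw [Matrix.submatrix_mul_equiv, Matrix.submatrix_mul_equiv]
          _ = reM e (J (Fin m) (GaloisField r f)) := by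
              rw [h23]
              rfl
      obtain ⟨P', c'', d', hd', D'⟩ := datum_change hF hj (neg_ne_zero.mpr (inv_ne_zero hε0)) D
        R₀ hR₀det (glOf _ hdJ) 1 one_ne_zero hR₀S
      have hm2 : 2 ≤ m := by omega
      exact ⟨core_bot_ofU hF hq hf hn h32 A hinn (GamU hF b)
        (fun N hN hodd k hk => by
          haveI := hN
          exact spU_A hF h2 hn h32 hj hd' D' hm2 e (glOf_val _ _) A hinn N hodd k hk)
        (fun g σ hcomm hfix m' hm' hpow hσm =>
          spU_B hF h2 hn h32 hj hd' D' hm2 e (glOf_val _ _) g σ hfix m' hm' hσm),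
        spU_even hF h2 hn h32 hj hd' D' hm2 e (glOf_val _ _)⟩
    · exact (not_skew_odd h2 hm b.1.1 (gl_det_ne_zero b.1) hc).elim

end Cfsg.Agent.H50.CorePSU
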