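import Mathlib
import Cfsg.Agent.H50.CorePSUGraph
import Cfsg.Agent.H50.CorePSUFieldE

/-!
The criterion for the failure of local balance for automorphisms of prime order of `PSU_n(q)`
which are not inner-diagonal.
-/

set_option autoImplicit false

open Matrix

namespace Cfsg.Agent.H50.CorePSU

open Cfsg.Agent.H50.GraphAut Cfsg.Agent.H50.AutPSL Cfsg.Agent.H50.FieldAut
open Cfsg.Agent.H50.CorePSp Cfsg.Agent.H50.GraphAutU Cfsg.Agent.H50.CorePSL
open Cfsg.Agent.H50.AutPSU Cfsg.Agent.H50.FieldAutU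

variable {n : ℕ} {F : Type*} [Field F] [Fintype F] {q : ℕ}

theorem exists_q_pow (r : ℕ) [Fact r.Prime] [CharP F r] (hF : Fintype.card F = q ^ 2) :
    ∃ f : ℕ, 1 ≤ f ∧ q = r ^ f := by
  have hr : r.Prime := Fact.out
  obtain ⟨k, -, hk⟩ := FiniteField.card F r
  have h1 : q ∣ r ^ (k : ℕ) := by
    rw [← hk, hF]
    exact dvd_pow_self q two_ne_zero
  obtain ⟨m, -, hm⟩ := (Nat.dvd_prime_pow hr).mp h1
  refine ⟨m, ?_, hm⟩
  by_contra h0
  have hm0 : m = 0 := by omega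
  rw [hm0, pow_zero] at hm
  rw [hm, one_pow] at hF
  have := Fintype.one_lt_card (α := F)
  omega

theorem not_32 (hF : Fintype.card F = q ^ 2) (hK : IsSimpleGroup (Cfsg.PSU n F q)) :
    ¬ (n = 3 ∧ q = 2) := by
  rintro ⟨rfl, rfl⟩
  have hcard : Fintype.card F = 4 := by rw [hF]; norm_num
  obtain ⟨h72, hsol⟩ := Cfsg.Agent.S0282.result hcard
  haveI := hK
  have hcomm : ∀ a b : Cfsg.PSU 3 F 2, a * b = b * a :=
    IsSimpleGroup.comm_iff_isSolvable.mpr hsol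
  letI : CommGroup (Cfsg.PSU 3 F 2) :=
    { (inferInstance : Group (Cfsg.PSU 3 F 2)) with mul_comm := hcomm }
  have hprime := IsSimpleGroup.prime_card (α := Cfsg.PSU 3 F 2)
  rw [h72] at hprime
  norm_num at hprime

theorem psu_main {r p : ℕ} [Fact r.Prime] [CharP F r] [Fact p.Prime]
    (hF : Fintype.card F = q ^ 2) (hn : 3 ≤ n) (hK : IsSimpleGroup (Cfsg.PSU n F q))
    (A : Subgroup (MulAut (Cfsg.PSU n F q))) (hinn : ∀ k : Cfsg.PSU n F q, MulAut.conj k ∈ A)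
    (hpr : p ≠ r) (β : MulAut (Cfsg.PSU n F q)) (hord : orderOf β = p)
    (hnot : ¬ Cfsg.IsInnerDiagonalAutPSU β) :
    Cfsg.pPrimeCore p ↥(A ⊓ Subgroup.centralizer ({β} : Set (MulAut (Cfsg.PSU n F q)))) ≠ ⊥ ↔
      ((∃ γ φ : MulAut (Cfsg.PSU n F q), Cfsg.IsInnerDiagonalAutPSU γ ∧
          (∃ σ : F ≃+* F, Cfsg.IsFieldAutPSUOf σ φ) ∧ β = φ.trans γ) ∧
        Nat.Coprime p (Nat.card ↥(MonoidHom.eqLocus β.toMonoidHom
          (MonoidHom.id (Cfsg.PSU n F q))))) := by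
  have hp : p.Prime := Fact.out
  obtain ⟨f, hf, hq⟩ := exists_q_pow (F := F) r hF
  have h32 := not_32 hF hK
  obtain ⟨g, τ, hβ⟩ := aut_eq hF hq hf hn h32 β
  have hτ1 : τ ≠ 1 := by
    rintro rfl
    apply hnot
    rw [hβ, phiU_one, mul_one]
    exact (isInnerDiagU_iff _).mpr ⟨g, rfl⟩
  have hfirst : ∃ γ φ : MulAut (Cfsg.PSU n F q), Cfsg.IsInnerDiagonalAutPSU γ ∧
      (∃ σ : F ≃+* F, Cfsg.IsFieldAutPSUOf σ φ) ∧ β = φ.trans γ :=
    ⟨deltaU g, phiU hF τ, (isInnerDiagU_iff _).mpr ⟨g, rfl⟩,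
      ⟨τ, (isFieldAutU_iff hF τ _).mpr rfl⟩, hβ⟩
  by_cases hp2 : p = 2
  · subst hp2
    have hβ2 : β ^ 2 = 1 := by
      rw [← hord]
      exact pow_orderOf_eq_one _
    have hτ2 : τ ^ 2 = 1 := by
      have h1 := congrArg (psiUHom hF hq hf hn h32) hβ2
      rw [map_pow, map_one, hβ, psiUHom_apply] at h1
      exact h1
    have hτ : τ = frobE hF := eq_frob_of_invol hF τ (fun x => by
      have h1 : (τ ^ 2) x = x := by
        rw [hτ2]
        rfl
      rw [pow_two] at h1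
      exact h1) hτ1
    have hβ' : β = GamU hF g⁻¹ := by
      rw [hβ, hτ, GamU, inv_inv, iotaU_eq_phiU]
    have h2F : (2 : F) ≠ 0 := by
      rw [Ne, two_eq_zero_iff (r := r)]
      exact fun h => hpr h.symm
    obtain ⟨hbot, hdvd⟩ := graphU_main hF hq hf h2F hn h32 g⁻¹ (by rw [← hβ', hord]) A hinn
    rw [← hβ'] at hbot hdvd
    constructor
    · intro h
      exact absurd hbot h
    · rintro ⟨-, hcop⟩
      exfalso
      have h3 : Nat.Coprime 2 (Nat.card ↥(FixS β)) := hcop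
      rw [Nat.Prime.coprime_iff_not_dvd Nat.prime_two] at h3
      exact h3 hdvd
  · subst hβ
    have key := fieldU_main hF hq hf hn h32 hp2 A hinn g τ hτ1 hord
    constructor
    · intro h
      exact ⟨hfirst, key.mp h⟩
    · intro h
      exact key.mpr h.2

end Cfsg.Agent.H50.CorePSU
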